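import Cfsg.Agent.H987.EP.SelfDual
import Cfsg.Agent.H905.MdG
import Cfsg.Prelude.Def_GeometricClasses

/-!
# Forms and the dual over the algebraic closure (helper987, S3499 task 6108)

* `SForm σ f` : `f` linear on the left, `σ`-semilinear on the right, nondegenerate;
* **`hsd_of_form`** : if `f` is invariant under `φ`, then `V ⊗ \bar F` and its dual have fixed spaces of the same
  dimension for all subgroups;
* `SForm.of_symplectic`, `of_unitary`, `of_quadratic`.
-/

set_option autoImplicit false
set_option linter.unusedSectionVars false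
set_option linter.style.haveILetI false

namespace Cfsg.Agent.H987.EP

open Matrix Cfsg.Agent.Omega.CR Cfsg.Agent.H905.Md Cfsg.Agent.H911

/-- `f` linear on the left, `σ`-semilinear on the right, nondegenerate -/
structure SForm {ι : Type} {F : Type*} [Field F] (σ : F ≃+* F) (f : (ι → F) → (ι → F) → F) : Prop where
  add_left : ∀ x y v, f (x + y) v = f x v + f y v
  smul_left : ∀ (c : F) x v, f (c • x) v = c * f x v
  add_right : ∀ v x y, f v (x + y) = f v x + f v y
  smul_right : ∀ (c : F) v x, f v (c • x) = σ c * f v x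
  nondeg : ∀ y, (∀ x, f x y = 0) → y = 0

namespace SForm

variable {ι : Type} [Fintype ι] [DecidableEq ι] {F : Type*} [Field F] {σ : F ≃+* F} {f : (ι → F) → (ι → F) → F}

/-- the Gram matrix -/
def gram (f : (ι → F) → (ι → F) → F) : Matrix ι ι F := Matrix.of fun i j => f (Pi.single i 1) (Pi.single j 1)

theorem apply_eq (h : SForm σ f) (x y : ι → F) : f x y = x ⬝ᵥ (gram f *ᵥ fun j => σ (y j)) := by
  have hz : ∀ v, f 0 v = 0 := fun v => by
    have := h.smul_left 0 0 v
    rwa [zero_smul, zero_mul] at this
  have hz' : ∀ v, f v 0 = 0 := fun v => by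
    have := h.smul_right 0 v 0
    rwa [zero_smul, map_zero, zero_mul] at this
  have h1 : ∀ (s : Finset ι) (x : ι → F) (v : ι → F), f (∑ i ∈ s, x i • Pi.single i (1 : F)) v =
      ∑ i ∈ s, x i * f (Pi.single i 1) v := by
    classical
    intro s x v
    induction s using Finset.induction_on with
    | empty => rw [Finset.sum_empty, Finset.sum_empty, hz]
    | insert a s ha ih => rw [Finset.sum_insert ha, Finset.sum_insert ha, h.add_left, h.smul_left, ih]
  have h2 : ∀ (s : Finset ι) (y : ι → F) (v : ι → F), f v (∑ i ∈ s, y i • Pi.single i (1 : F)) =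
      ∑ i ∈ s, σ (y i) * f v (Pi.single i 1) := by
    classical
    intro s y v
    induction s using Finset.induction_on with
    | empty => rw [Finset.sum_empty, Finset.sum_empty, hz']
    | insert a s ha ih => rw [Finset.sum_insert ha, Finset.sum_insert ha, h.add_right, h.smul_right, ih]
  have e : ∀ x : ι → F, ∑ i, x i • Pi.single i (1 : F) = x := fun x => by
    ext j
    rw [Finset.sum_apply, Finset.sum_eq_single j]
    · simp
    · intro i _ hij
      simp [Pi.single_eq_of_ne hij.symm]
    · intro hj
      exact absurd (Finset.mem_univ _) hj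
  conv_lhs => rw [← e x, ← e y]
  rw [h1]
  refine Finset.sum_congr rfl fun i _ => ?_
  congr 1
  rw [h2]
  refine Finset.sum_congr rfl fun j _ => ?_
  rw [mul_comm]
  rfl

theorem det_gram (h : SForm σ f) : (gram f).det ≠ 0 := by
  intro h0
  obtain ⟨v, hv0, hv⟩ := (Matrix.exists_mulVec_eq_zero_iff).2 h0
  apply hv0
  have h1 : (fun j => σ.symm (v j)) = 0 := by
    apply h.nondeg
    intro x
    rw [h.apply_eq]
    have : (fun j => σ (σ.symm (v j))) = v := by
      funext j
      exact σ.apply_symm_apply _
    rw [this, hv, dotProduct_zero]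
  funext j
  have h2 := congrFun h1 j
  simpa using h2

/-- an isometry -/
theorem isom (h : SForm σ f) {g : Matrix ι ι F} (hg : ∀ x y, f (g *ᵥ x) (g *ᵥ y) = f x y) :
    gᵀ * gram f * g.map σ = gram f := by
  ext i j
  have h1 := hg (Pi.single i 1) (Pi.single j 1)
  rw [h.apply_eq, Matrix.mulVec_single_one, Matrix.mulVec_single_one] at h1
  have h2 : gram f i j = f (Pi.single i 1) (Pi.single j 1) := rfl
  rw [h2, ← h1, Matrix.mul_assoc, Matrix.mul_apply]
  refine Finset.sum_congr rfl fun a _ => ?_
  rw [Matrix.mul_apply]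
  rfl

/-- **The hypothesis of `mem_Jx_opp`.** -/
theorem hsd {G : Type*} [Group G] {φ : G →* GL ι F} (h : SForm σ f)
    (hf : ∀ g x y, f ((φ g : Matrix ι ι F) *ᵥ x) ((φ g : Matrix ι ι F) *ᵥ y) = f x y) (B : Subgroup G) :
    Module.finrank (AlgebraicClosure F) (fx (lin (acRep φ)) B) =
      Module.finrank (AlgebraicClosure F) (fx (dualRep (lin (acRep φ))) B) := by
  let τ : AlgebraicClosure F ≃+* AlgebraicClosure F :=
    IsAlgClosure.equivOfEquiv (AlgebraicClosure F) (AlgebraicClosure F) σ
  have hτ : ∀ a : F, τ (algebraMap F (AlgebraicClosure F) a) = algebraMap F (AlgebraicClosure F) (σ a) := fun a =>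
    IsAlgClosure.equivOfEquiv_algebraMap _ _ σ a
  set C : Matrix ι ι (AlgebraicClosure F) := (gram f).map (algebraMap F (AlgebraicClosure F)) with hC
  have hdet : C.det ≠ 0 := by
    have h1 : C.det = algebraMap F (AlgebraicClosure F) (gram f).det := by
      rw [hC]
      exact ((algebraMap F (AlgebraicClosure F)).map_det (gram f)).symm
    rw [h1]
    exact (map_ne_zero _).2 h.det_gram
  have hu : IsUnit C := (Matrix.isUnit_iff_isUnit_det C).2 (isUnit_iff_ne_zero.2 hdet)
  have hun : C⁻¹ * C = 1 := Matrix.nonsing_inv_mul C (isUnit_iff_ne_zero.2 hdet)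
  have hun' : C * C⁻¹ = 1 := Matrix.mul_nonsing_inv C (isUnit_iff_ne_zero.2 hdet)
  -- the isometries
  have hiso : ∀ g, (acRep φ g)ᵀ * C * (acRep φ g).map τ = C := by
    intro g
    have h1 := h.isom (hf g)
    have h2 := congrArg (fun N : Matrix ι ι F => N.map (algebraMap F (AlgebraicClosure F))) h1
    simp only [Matrix.map_mul] at h2
    have e1 : ((φ g : Matrix ι ι F).map (algebraMap F (AlgebraicClosure F))).map τ =
        ((φ g : Matrix ι ι F).map σ).map (algebraMap F (AlgebraicClosure F)) := by
      ext i j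
      exact hτ _
    rw [acRep_apply, e1, hC]
    exact h2
  -- the semilinear isomorphism
  let Θ : (ι → AlgebraicClosure F) ≃+ Module.Dual (AlgebraicClosure F) (ι → AlgebraicClosure F) :=
    { toFun := fun y => dotProductEquiv (AlgebraicClosure F) ι (C *ᵥ fun j => τ (y j))
      invFun := fun ψ => fun j => τ.symm ((C⁻¹ *ᵥ (dotProductEquiv (AlgebraicClosure F) ι).symm ψ) j)
      left_inv := fun y => by
        funext j
        beta_reduce
        rw [LinearEquiv.symm_apply_apply, Matrix.mulVec_mulVec, hun, Matrix.one_mulVec, RingEquiv.symm_apply_apply]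
      right_inv := fun ψ => by
        have e : (fun j => τ (τ.symm ((C⁻¹ *ᵥ (dotProductEquiv (AlgebraicClosure F) ι).symm ψ) j))) =
            C⁻¹ *ᵥ (dotProductEquiv (AlgebraicClosure F) ι).symm ψ := by
          funext j
          exact τ.apply_symm_apply _
        beta_reduce
        rw [e, Matrix.mulVec_mulVec, hun', Matrix.one_mulVec, LinearEquiv.apply_symm_apply]
      map_add' := fun x y => by
        rw [← map_add, ← Matrix.mulVec_add]
        congr 2
        funext j
        exact map_add τ _ _ }
  refine finrank_fx_of_semilinear τ Θ (fun c v => ?_) (fun g v => ?_) B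
  · change dotProductEquiv (AlgebraicClosure F) ι (C *ᵥ fun j => τ ((c • v) j)) =
      τ c • dotProductEquiv (AlgebraicClosure F) ι (C *ᵥ fun j => τ (v j))
    rw [← map_smul, ← Matrix.mulVec_smul]
    congr 2
    funext j
    exact map_mul τ _ _
  · change dotProductEquiv (AlgebraicClosure F) ι (C *ᵥ fun j => τ (lin (acRep φ) g v j)) =
      dualRep (lin (acRep φ)) g (dotProductEquiv (AlgebraicClosure F) ι (C *ᵥ fun j => τ (v j)))
    have e1 : (fun j => τ (lin (acRep φ) g v j)) = (acRep φ g).map τ *ᵥ fun j => τ (v j) := by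
      funext j
      rw [lin_apply]
      simp [Matrix.mulVec, dotProduct, map_sum, map_mul]
    have e2 : C * (acRep φ g).map τ = (acRep φ g⁻¹)ᵀ * C := by
      have h3 : (acRep φ g⁻¹)ᵀ * ((acRep φ g)ᵀ * C * (acRep φ g).map τ) = (acRep φ g⁻¹)ᵀ * C := by rw [hiso]
      rw [← h3, ← Matrix.mul_assoc, ← Matrix.mul_assoc, ← Matrix.transpose_mul, ← map_mul, mul_inv_cancel, map_one,
        Matrix.transpose_one, Matrix.one_mul]
    rw [e1, Matrix.mulVec_mulVec, e2, ← Matrix.mulVec_mulVec]
    ext i
    simp only [LinearMap.comp_apply, dualRep_apply, dotProductEquiv_apply_apply, LinearMap.single_apply, lin_apply]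
    rw [Matrix.mulVec_transpose, Matrix.dotProduct_mulVec]

omit [Fintype ι] [DecidableEq ι] in
theorem of_bilinear (hf : Cfsg.Geo.IsBilinearForm f) (hn : Cfsg.Geo.IsNondegenerateForm f) :
    SForm (RingEquiv.refl F) f where
  add_left x y v := hf.add_left x y v
  smul_left c x v := hf.smul_left c x v
  add_right v x y := hf.add_right v x y
  smul_right c v x := hf.smul_right c v x
  nondeg y hy := by
    by_contra h0
    obtain ⟨⟨x, hx⟩, -⟩ := hn y h0
    exact hx (hy x)

omit [Fintype ι] [DecidableEq ι] in
theorem of_symplectic (hf : Cfsg.Geo.IsSymplecticForm f) : SForm (RingEquiv.refl F) f :=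
  of_bilinear hf.bilinear hf.nondegenerate

omit [Fintype ι] [DecidableEq ι] in
theorem of_quadratic {Q : (ι → F) → F} (hQ : Cfsg.Geo.IsNondegenerateQuadraticForm Q) :
    SForm (RingEquiv.refl F) (QuadraticMap.polar Q) := of_bilinear hQ.polar_bilinear hQ.nondegenerate

omit [Fintype ι] [DecidableEq ι] in
theorem of_unitary (hf : Cfsg.Geo.IsUnitaryForm σ f) : SForm σ f where
  add_left := hf.add_left
  smul_left := hf.smul_left
  add_right v x y := by rw [hf.herm, hf.add_left, map_add, ← hf.herm, ← hf.herm]
  smul_right c v x := by rw [hf.herm, hf.smul_left, map_mul, ← hf.herm]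
  nondeg y hy := by
    by_contra h0
    obtain ⟨⟨x, hx⟩, -⟩ := hf.nondegenerate y h0
    exact hx (hy x)

end SForm

end Cfsg.Agent.H987.EP
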