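import Cfsg.Agent.H987.EP.TypeB
import Cfsg.Agent.H987.EP.Form
import Cfsg.Agent.S0813
import Cfsg.Agent.S0243
import Cfsg.Agent.ClassicalGeometry.PSL2Basic

/-!
# Cores with socle `PSL(l + 1, K)` in their own characteristic: dimensions and orders (helper987, S3499 task 6108)

* **`sd_bound`** : a core which preserves a nondegenerate (sesqui)linear form has dimension `≥ (l + 1) l` or
  `≥ C(l + 1, (l + 1) / 2)`;
* `sd_three` : `l = 2`, `|K| = |F| ^ j`, `j ≥ 2` : dimension `≥ 18`;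
* **`card_mulAut_le`** : `|Aut PSL(d, K)| ≤ |K| ^ (d ^ 2)`.
-/

set_option autoImplicit false
set_option linter.unusedSectionVars false
set_option linter.style.haveILetI false

namespace Cfsg.Agent.H987.EP

open Matrix CoxeterSystem Cfsg.Agent.ChevalleyStructure.CoxeterGeom Cfsg.Agent.Tits.Roots Cfsg.Agent.Tits.Core
  Cfsg.Agent.Tits.Exchange Cfsg.Agent.Nodes.Reps Cfsg.Agent.Nodes.BNOf Cfsg.Agent.Nodes.StabComb
  Cfsg.Agent.Nodes.Bruhat Cfsg.Agent.Nodes.OppDec Cfsg.Agent.Nodes.LeviDec Cfsg.Agent.KFacts.RgdOpp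
  Cfsg.Agent.Omega.CR Cfsg.Agent.Omega.FOne.Lift.Sd Cfsg.Agent.H905.Md Cfsg.Agent.Nodes.RootsA
open Cfsg Cfsg.Geo
open Cfsg.Agent.LieRecognition.BNCox (cA cA_apply)
open Cfsg.Agent.H650.Ppd (mf dim_ge_list dim_ge_list_two nd_A edge_pow_of_card)
open Cfsg.Agent.H905.DC (cf)
open Cfsg.Agent.H911 (lin)
open Cfsg.Agent.H915.LD (Core Soc)

/-! ### `l = 2` -/

section two

variable {W Y : Type*} [Group W] [Group Y] {cs : CoxeterSystem (cA 2) W} {p : ℕ} {T : Subgroup Y}
  {nn : Fin 2 → Y} {X : (Fin 2 → ℤ) → Subgroup Y} {k V : Type*} [Field k] [AddCommGroup V] [Module k V]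
  (R : RGD cs (isCartan 2) p T nn X) [Finite Y] [Finite W] [Fact p.Prime] [CharP k p]
  {ρ : Y →* Module.End k V} [FiniteDimensional k V] [Nontrivial V]
  (hirr : ∀ L : Submodule k V, Ivt ρ (GG cs (isCartan 2) T X) L → L = ⊥ ∨ L = ⊤)
  (hD : Module.finrank k (D cs (isCartan 2) X ρ) = 1) (hn : 2 ≤ Module.finrank k V)
  (hsd : ∀ B : Subgroup Y, Module.finrank k (fx ρ B) = Module.finrank k (fx (dualRep ρ) B))
  (he : ∀ i, i ∉ Jx cs (isCartan 2) X ρ → 4 ≤ Module.finrank k (Le cs (isCartan 2) T X ρ {i}))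
include R hirr hD hn hsd he

theorem eighteen_le_two : 18 ≤ Module.finrank k V := by
  obtain ⟨i, hi, hi', hii⟩ := exists_pair_nodes R hirr hD hn hsd
  have h2 : i = 0 := by
    rw [Fin.le_def, Fin.val_rev] at hii
    have := i.2
    have h3 : i.val = 0 := by omega
    exact Fin.ext h3
  subst h2
  have h4 := he 0 hi
  have h5 := finrank_Io R hirr 0
  have h6 := he 1 hi'
  have h7 := finrank_Io R hirr 1
  rw [hD] at h5 h7
  have h1 := dim_ge_list_two R hirr hi (j := 1) hi' (by decide) [[], [0], [1], [0, 1], [1, 0], [0, 1, 0]]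
    [[], [1], [1, 0]] [[], [0], [0, 1]] (by decide +kernel) (by decide +kernel) (by decide +kernel)
  rw [hD] at h1
  simp only [List.length_cons, List.length_nil] at h1
  omega

end two

section bound

variable {F : Type*} [Field F] [Finite F] {ι : Type} [Fintype ι] [DecidableEq ι] {P : Subgroup (GL ι F)}
  {K : Type} [Field K] [Fintype K] (p : ℕ) [hp : Fact p.Prime] [hFp : CharP F p] [hKp : CharP K p] {l : ℕ}
  {σ : F ≃+* F} {f : (ι → F) → (ι → F) → F}
include hp hFp hKp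

/-- **The dimension of a core with an invariant form.** -/
theorem sd_bound (hC : Core P) (hl : 2 ≤ l) (Φ : Soc P ≃* ProjectiveSpecialLinearGroup (Fin (l + 1)) K)
    (hf : SForm σ f) (hP : ∀ g ∈ P, ∀ x y, f ((g : Matrix ι ι F) *ᵥ x) ((g : Matrix ι ι F) *ᵥ y) = f x y) :
    (l + 1) * l ≤ Fintype.card ι ∨ ∃ t, l + 1 = 2 * t ∧ (2 * t).choose t ≤ Fintype.card ι := by
  obtain ⟨φ, hφ, -, -⟩ := psl_cover p hC.perfect (by omega) (fun h => by omega) Φ
  have h2 := nonempty_of_psl hC.perfect (by omega) (fun h => by omega) Φ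
  haveI : Nonempty ι := Fintype.card_pos_iff.1 (by omega)
  haveI : Finite (cA l).Group := finite_W (cA l).toCoxeterSystem (isCartan l)
  haveI hchar : CharP (AlgebraicClosure F) p := charP_of_injective_algebraMap (algebraMap F _).injective p
  have R := Nodes.RGDTypeA.rgd (cA l).toCoxeterSystem (isCartan l) (F := K) (p := p)
  have hG := gg_eq_top (T := Nodes.RGDTypeA.T (Fin (l + 1)) K)
    (Nodes.RGDTypeA.G1_eq_top (F := K) (cA l).toCoxeterSystem (isCartan l))
  have hirr := ac_irr R hG slT_comm hφ hC.absIrred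
  have hD := finrank_D R hirr slT_comm
  have h3 := sd_dim R hirr hD (by rw [Module.finrank_fintype_fun_eq_card]; exact h2)
    (fun B => hf.hsd (φ := φ) (fun g x y => hP _ (hφ ▸ ⟨g, rfl⟩) x y) B)
  rwa [Module.finrank_fintype_fun_eq_card] at h3

theorem sd_three (hC : Core P) (Φ : Soc P ≃* ProjectiveSpecialLinearGroup (Fin (2 + 1)) K)
    (hf : SForm σ f) (hP : ∀ g ∈ P, ∀ x y, f ((g : Matrix ι ι F) *ᵥ x) ((g : Matrix ι ι F) *ᵥ y) = f x y)
    {j : ℕ} (hj : Nat.card K = Nat.card F ^ j) (hj2 : 2 ≤ j) : 18 ≤ Fintype.card ι := by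
  obtain ⟨φ, hφ, -, -⟩ := psl_cover p hC.perfect (by omega) (fun h => by omega) Φ
  have h2 := nonempty_of_psl hC.perfect (by omega) (fun h => by omega) Φ
  haveI : Nonempty ι := Fintype.card_pos_iff.1 (by omega)
  haveI : Finite (cA 2).Group := finite_W (cA 2).toCoxeterSystem (isCartan 2)
  haveI hchar : CharP (AlgebraicClosure F) p := charP_of_injective_algebraMap (algebraMap F _).injective p
  have R := Nodes.RGDTypeA.rgd (cA 2).toCoxeterSystem (isCartan 2) (F := K) (p := p)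
  have hG := gg_eq_top (T := Nodes.RGDTypeA.T (Fin (2 + 1)) K)
    (Nodes.RGDTypeA.G1_eq_top (F := K) (cA 2).toCoxeterSystem (isCartan 2))
  have hirr := ac_irr R hG slT_comm hφ hC.absIrred
  have hD := finrank_D R hirr slT_comm
  have h3 := eighteen_le_two R hirr hD (by rw [Module.finrank_fintype_fun_eq_card]; exact h2)
    (fun B => hf.hsd (φ := φ) (fun g x y => hP _ (hφ ▸ ⟨g, rfl⟩) x y) B)
    (fun i hi => by
      obtain ⟨d, hd2, hd⟩ := edge_pow_of_card R hG slT_comm hφ hC.absIrred (nd_A i) hi hj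
      rw [hd]
      calc 4 = 2 ^ 2 := rfl
        _ ≤ 2 ^ j := Nat.pow_le_pow_right (by norm_num) hj2
        _ ≤ d ^ j := Nat.pow_le_pow_left hd2 j)
  rwa [Module.finrank_fintype_fun_eq_card] at h3

end bound

/-! ### orders -/

section aut

variable {K : Type*} [Field K] [Fintype K]

theorem card_GL_le {d : ℕ} (hd : 1 ≤ d) :
    Nat.card (GL (Fin d) K) ≤ Fintype.card K ^ (d ^ 2 - 1) * (Fintype.card K - 1) := by
  obtain ⟨m, rfl⟩ : ∃ m, d = m + 1 := ⟨d - 1, by omega⟩
  rw [Matrix.card_GL_field, Fin.prod_univ_castSucc]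
  set q := Fintype.card K with hq
  have h1 : ∏ i : Fin m, (q ^ (m + 1) - q ^ (Fin.castSucc i : ℕ)) ≤ q ^ ((m + 1) * m) := by
    calc ∏ i : Fin m, (q ^ (m + 1) - q ^ (Fin.castSucc i : ℕ)) ≤ ∏ _i : Fin m, q ^ (m + 1) :=
          Finset.prod_le_prod' fun i _ => Nat.sub_le _ _
      _ = q ^ ((m + 1) * m) := by rw [Finset.prod_const, Finset.card_univ, Fintype.card_fin, ← pow_mul]
  have h2 : q ^ (m + 1) - q ^ (Fin.last m : ℕ) = q ^ m * (q - 1) := by
    rw [Fin.val_last, pow_succ, Nat.mul_sub, mul_one]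
  rw [h2]
  have e : (m + 1) ^ 2 - 1 = (m + 1) * m + m := by
    have : (m + 1) ^ 2 = (m + 1) * m + m + 1 := by ring
    omega
  rw [e, pow_add q ((m + 1) * m) m, mul_assoc]
  exact Nat.mul_le_mul_right _ h1

theorem two_mul_le_pow {p f : ℕ} (hp : 2 ≤ p) (hf : 1 ≤ f) : 2 * f ≤ p ^ f := by
  have h1 : 2 * f ≤ 2 ^ f := by
    induction f, hf using Nat.le_induction with
    | base => norm_num
    | succ j hj ih => rw [pow_succ]; omega
  exact h1.trans (Nat.pow_le_pow_left hp f)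

/-- **The order of the automorphism group.** -/
theorem card_mulAut_le {d : ℕ} (hd : 2 ≤ d) (h4 : d = 2 → 4 ≤ Fintype.card K) :
    Nat.card (MulAut (ProjectiveSpecialLinearGroup (Fin d) K)) ≤ Fintype.card K ^ (d ^ 2) := by
  classical
  obtain ⟨p, hpK⟩ := CharP.exists K
  obtain ⟨f, hpp, hF⟩ := FiniteField.card K p
  haveI := Fact.mk hpp
  have : NeZero d := ⟨by omega⟩
  rw [S0813.result p f f.pos hF d hd (fun h => by rw [← hF]; exact h4 h)]
  have h1 : Nat.card (ProjGenLinGroup (Fin d) K) * (Fintype.card K - 1) = Nat.card (GL (Fin d) K) :=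
    Cfsg.Agent.ClassicalGeometry.PSL2Basic.card_PGL_mul (Fin d) K
  have h2 := card_GL_le (K := K) (d := d) (by omega)
  rw [← h1] at h2
  have hq := Fintype.one_lt_card (α := K)
  have h3 := Nat.le_of_mul_le_mul_right h2 (by omega)
  have h5 : (if d = 2 then 1 else 2) * (f : ℕ) ≤ Fintype.card K := by
    have h6 := two_mul_le_pow hpp.two_le f.pos
    rw [hF]
    refine le_trans (Nat.mul_le_mul_right _ ?_) h6
    split_ifs <;> omega
  have h7 : Fintype.card K ^ (d ^ 2) = Fintype.card K * Fintype.card K ^ (d ^ 2 - 1) := by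
    rw [← pow_succ']
    congr 1
    have : 1 ≤ d ^ 2 := Nat.one_le_pow _ _ (by omega)
    omega
  rw [h7]
  exact Nat.mul_le_mul h5 h3

end aut

end Cfsg.Agent.H987.EP
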