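import Cfsg.Agent.H987.EP.OwnTwo
import Cfsg.Agent.H470.EPO.OwnBig
import Cfsg.Agent.H36.EPL.Bound

/-!
# S3499-VII, own characteristic, `n ≥ 13`: socle `PSL(d, K)`, final form (helper987)

**`ownPSL`** : `TwoGen → OwnPSL`.
-/

set_option autoImplicit false
set_option linter.unusedSectionVars false
set_option linter.style.haveILetI false

namespace Cfsg.Agent.H987.EP

open Subgroup Matrix Cfsg Cfsg.Geo Cfsg.Agent.H284 Cfsg.Agent.H419.EP Cfsg.Agent.H59.EP
open Cfsg.Agent.H915.LD (Core Soc core_of_residual)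
open scoped MatrixGroups

section Big

variable {Q : Type} [Group Q] [Finite Q] {A : Subgroup Q} {Γ : Subgroup (MulAut Q)} {ι : Type} [Fintype ι]
    [DecidableEq ι] {F : Type} [Field F] [Fintype F] {S P : Subgroup (GL ι F)}

/-- **`d = 2`** -/
theorem two' (b : Big A Γ S P) {K : Type} [Field K] [Fintype K] (hc : ringChar F = ringChar K)
    (e : socle P ≃* ProjectiveSpecialLinearGroup (Fin 2) K) (hUB : Nat.card Q ≤ Fintype.card K ^ 17) : False := by
  haveI : Fact (ringChar F).Prime := ⟨CharP.char_is_prime F (ringChar F)⟩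
  haveI : CharP K (ringChar F) := by rw [hc]; exact ringChar.charP K
  obtain ⟨j, m, hj0, hj, hm, hn⟩ := H875.Psl2.exists_pow (ringChar F) (core_of_residual b.core) e
  have h13 := b.thirteen
  have h2' := b.two_le
  have h1 : Fintype.card ι * (Fintype.card ι - 1) / 2 ≤ 17 * j + 3 := by
    have h1 : Fintype.card F ^ (Fintype.card ι * (Fintype.card ι - 1) / 2) ≤ Fintype.card F ^ (17 * j + 3) := by
      refine b.ord.trans ?_
      calc 8 * Nat.card Q ≤ Fintype.card F ^ 3 * (Fintype.card F ^ j) ^ 17 :=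
            Nat.mul_le_mul ((by norm_num : 8 = 2 ^ 3).le.trans (Nat.pow_le_pow_left h2' 3)) (by rw [← hj]; exact hUB)
        _ = Fintype.card F ^ (17 * j + 3) := by rw [← pow_mul, ← pow_add]; congr 1; ring
    exact (Nat.pow_le_pow_iff_right (by omega)).1 h1
  have h2 : 2 ^ j ≤ Fintype.card ι := by rw [hn]; exact Nat.pow_le_pow_left hm j
  rcases Nat.lt_or_ge j 5 with h5 | h5
  · have h7 := tri_mono h13
    norm_num at h7
    rcases Nat.lt_or_ge j 4 with h6 | h6
    · omega
    · obtain rfl : j = 4 := by omega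
      have h8 := tri_mono h2
      norm_num at h8
      omega
  · have h6 := two_pow_six h5
    have h7 := tri_mono (h6.trans h2)
    have h8 : 20 * j + 4 ≤ (6 * j + 2) * (6 * j + 2 - 1) / 2 := by
      rw [Nat.le_div_iff_mul_le (by norm_num)]
      have e1 : 6 * j + 2 - 1 = 6 * j + 1 := by omega
      rw [e1]
      nlinarith
    omega

/-- **`d ≥ 19`, `|K| = 2`** -/
theorem four_big (b : Big A Γ S P) {K : Type} [Field K] [Fintype K] (hc : ringChar F = ringChar K)
    (hK : Fintype.card K = 2) {l : ℕ} (hl : 18 ≤ l)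
    (e : socle P ≃* ProjectiveSpecialLinearGroup (Fin (l + 1)) K) (hUB : Nat.card Q ≤ Nat.card A ^ (l + 5)) :
    False := by
  haveI : Fact (ringChar F).Prime := ⟨CharP.char_is_prime F (ringChar F)⟩
  haveI : CharP K (ringChar F) := by rw [hc]; exact ringChar.charP K
  have hC := core_of_residual b.core
  have h2 := b.two_le
  obtain ⟨j, hj0, hj⟩ := H905.Md.psl_card (l := l) (ringChar F) hC.absIrred hC.perfect (by omega)
    (fun h => by omega) e hC.no_subfield
  have hF : Fintype.card F = 2 := by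
    rw [Nat.card_eq_fintype_card, Nat.card_eq_fintype_card, hK] at hj
    refine le_antisymm ?_ h2
    rw [← hj]
    exact Nat.le_self_pow (by omega) _
  have hA := card_A_le b (d := l + 1) (by omega) (fun h => by omega) e
  rw [hK.trans hF.symm] at hA
  have h1 := num_le b hUB hA
  obtain ⟨i, rfl⟩ : ∃ i, l = i + 18 := ⟨l - 18, by omega⟩
  rcases form_of_kind b with ⟨-, ho⟩ | ⟨σ, f, hf, hP⟩
  · have h5 := num_lin ho hUB hA
    by_cases hch : Fintype.card ι < (i + 18 + 1).choose 2
    · have h7 := H905.Md.psl_dim (ringChar F) hC.absIrred hC.perfect (by omega) (fun h => by omega) e (by omega)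
        (Or.inl hch)
      exact natural b hK (by omega) hF h7 e
    · push Not at hch
      have h7 : (i + 18 + 1).choose 2 * 2 = (i + 18 + 1) * (i + 18) := by
        rw [Nat.choose_two_right, Nat.add_sub_cancel, Nat.div_mul_cancel]
        rw [mul_comm]
        exact (Nat.even_mul_succ_self _).two_dvd
      have h8 : (i + 18 + 1) * (i + 18) ≤ 2 * Fintype.card ι := by omega
      have h9 : ((i + 18 + 1) * (i + 18)) ^ 2 ≤ (2 * Fintype.card ι) ^ 2 := Nat.pow_le_pow_left h8 2
      have h10 : (2 * Fintype.card ι) ^ 2 = 4 * Fintype.card ι ^ 2 := by ring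
      have h11 : Fintype.card ι ^ 2 ≤ (i + 18 + 1) ^ 2 * (i + 18 + 5) + 2 := by omega
      rw [h10] at h9
      have h12 : 4 * ((i + 18 + 1) ^ 2 * (i + 18 + 5) + 2) < ((i + 18 + 1) * (i + 18)) ^ 2 := by
        have e1 : ((i + 18 + 1) * (i + 18)) ^ 2 = (i + 19) ^ 2 * (i ^ 2 + 36 * i + 324) := by ring
        have e2 : 4 * ((i + 18 + 1) ^ 2 * (i + 18 + 5) + 2) = (i + 19) ^ 2 * (4 * i + 92) + 8 := by ring
        rw [e1, e2]
        have h13 : (i + 19) ^ 2 * (4 * i + 92) + 8 < (i + 19) ^ 2 * (4 * i + 93) := by nlinarith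
        refine h13.trans_le (Nat.mul_le_mul_left _ ?_)
        nlinarith
      omega
  · have hdim := sd_bound (ringChar F) hC (l := i + 18) (by omega) e hf hP
    have h7 : (i + 18 + 1) * (i + 18) ≤ Fintype.card ι := by
      rcases hdim with h8 | ⟨t, h8, h9⟩
      · exact h8
      · have h10 := centralBinom_ge (t := t) (by omega)
        rw [← h8] at h10 h9
        rw [Nat.add_sub_cancel] at h10
        exact h10.trans h9
    have h8 := (tri_mono h7).trans h1
    have h9 : (i + 18 + 1) ^ 2 * (i + 18 + 5) + 4 ≤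
        (i + 18 + 1) * (i + 18) * ((i + 18 + 1) * (i + 18) - 1) / 2 := by
      rw [Nat.le_div_iff_mul_le (by norm_num)]
      have e2 : (i + 18 + 1) * (i + 18) = i ^ 2 + 37 * i + 342 := by ring
      have e1 : (i + 18 + 1) * (i + 18) - 1 = i ^ 2 + 37 * i + 341 := by omega
      rw [e1, e2]
      nlinarith [sq_nonneg i, Nat.zero_le i, Nat.zero_le (i ^ 3), Nat.zero_le (i ^ 4)]
    omega

/-- **`|K| = 2`** -/
theorem two_field (b : Big A Γ S P) (hg : TwoGen.{0}) {K : Type} [Field K] [Fintype K]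
    (hc : ringChar F = ringChar K) (hK : Fintype.card K = 2) {d : ℕ} (hd : 3 ≤ d)
    (e : socle P ≃* ProjectiveSpecialLinearGroup (Fin d) K) : False := by
  have hA := card_A_le b (d := d) (by omega) (fun h => by omega) e
  rw [hK] at hA
  have h18 : d ≤ 18 → Nat.card Q ≤ Nat.card A ^ 5 := by
    intro h
    refine card_two b hg hK hd e (j := 1) le_rfl (hA.trans_lt ?_)
    have h1 : d ^ 2 ≤ 18 ^ 2 := Nat.pow_le_pow_left h 2
    refine (Nat.pow_le_pow_right (by norm_num) h1).trans_lt ?_
    rw [show 18 ^ 2 = 162 * 2 by norm_num, pow_mul]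
    norm_num
  rcases Nat.lt_or_ge d 4 with h | h
  · obtain rfl : d = 3 := by omega
    exact three b hc e ((h18 (by norm_num)).trans (Nat.pow_le_pow_right Nat.card_pos (by norm_num)))
  · obtain ⟨l, rfl⟩ : ∃ l, d = l + 1 := ⟨d - 1, by omega⟩
    rcases Nat.lt_or_ge l 18 with h1 | h1
    · exact four b hc hK (by omega) e (h18 (by omega))
    · have h2 : Nat.card Q ≤ Nat.card A ^ (4 + (l + 1)) := by
        refine card_two b hg hK hd e (j := l + 1) (by omega) (hA.trans_lt ?_)
        have h3 : (l + 1) ^ 2 < 60 ^ (l + 1) := by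
          have h4 : l + 1 < 2 ^ (l + 1) := Nat.lt_two_pow_self
          calc (l + 1) ^ 2 < (2 ^ (l + 1)) ^ 2 := Nat.pow_lt_pow_left h4 (by norm_num)
            _ = 4 ^ (l + 1) := by rw [← pow_mul, mul_comm, pow_mul]; norm_num
            _ ≤ 60 ^ (l + 1) := Nat.pow_le_pow_left (by norm_num) _
        calc 2 ^ (l + 1) ^ 2 < 2 ^ 60 ^ (l + 1) := Nat.pow_lt_pow_right (by norm_num) h3
          _ ≤ 60 ^ 60 ^ (l + 1) := Nat.pow_le_pow_left (by norm_num) _
      rw [show 4 + (l + 1) = l + 5 by omega] at h2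
      exact four_big b hc hK h1 e h2

end Big

/-- **Socle `PSL(d, K)` in own characteristic, dimension at least 13.** -/
theorem ownPSL (hg : TwoGen.{0}) : OwnPSL := by
  intro Q _ _ A Γ ι _ _ F _ _ S P b K _ _ d hd hd4 hc hiso
  obtain ⟨e⟩ := hiso
  rcases Nat.lt_or_ge d 3 with h | h
  · obtain rfl : d = 2 := by omega
    exact two' b hc e (H36.EPL.card_le hg b.simple b.ept (hd4 rfl) (b.hasSoc' e))
  · rcases Nat.lt_or_ge 2 (Fintype.card K) with h5 | h5
    · obtain ⟨l, rfl⟩ : ∃ l, d = l + 1 := ⟨d - 1, by omega⟩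
      haveI : Fact (ringChar F).Prime := ⟨CharP.char_is_prime F (ringChar F)⟩
      haveI : CharP K (ringChar F) := by rw [hc]; exact ringChar.charP K
      refine H470.EPO.own_big b (by omega) e ((H284.Pan.filtC_PSL (F := K) l).mono ?_)
      rw [Nat.card_eq_fintype_card]
      exact h5
    · exact two_field b hg hc (le_antisymm h5 Fintype.one_lt_card) h e

end Cfsg.Agent.H987.EP
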