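import Cfsg.Agent.H987.EP.Bounds
import Cfsg.Agent.H419.EP.Big
import Cfsg.Agent.H953.Sympl

/-!
# S3499-VII, own characteristic, `n ≥ 13`: socle `PSL(d, K)` (helper987, task 6108)

**`ownPSL_of`** : `OwnPSL` from the upper bounds of `|Q|`:
* `d = 2` : `|Q| ≤ |A| ^ 5`; `d = 3` : `|Q| ≤ |A| ^ 6`; `d ≥ 4`, `|K| = 2` : `|Q| ≤ |A| ^ 5`;
* `d ≥ 4`, `|K| > 2` : impossible.

**`ownPSL_of'`** : `d = 2` : `|Q| ≤ |A| ^ 5`; `d ≥ 3`, `|K| = 2` : `|Q| ≤ |A| ^ 5`; `d ≥ 3`, `|K| > 2` : impossible.
-/

set_option autoImplicit false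
set_option linter.unusedSectionVars false
set_option linter.style.haveILetI false

namespace Cfsg.Agent.H987.EP

open Subgroup Matrix Cfsg Cfsg.Geo Cfsg.Agent.H284 Cfsg.Agent.H419.EP
open Cfsg.Agent.H915.LD (Core Soc core_of_residual)
open scoped MatrixGroups

/-! ### arithmetic -/

theorem centralBinom_ge {t : ℕ} (ht : 4 ≤ t) : 2 * t * (2 * t - 1) ≤ (2 * t).choose t := by
  have key : 2 * t * (2 * t - 1) ≤ Nat.centralBinom t := by
    induction t, ht using Nat.le_induction with
    | base => decide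
    | succ t ht ih =>
      have h1 := Nat.succ_mul_centralBinom_succ t
      have h2 : 3 * Nat.centralBinom t ≤ Nat.centralBinom (t + 1) := by
        have h3 : (t + 1) * (3 * Nat.centralBinom t) ≤ (t + 1) * Nat.centralBinom (t + 1) := by
          rw [h1]
          have h4 : (t + 1) * 3 ≤ 2 * (2 * t + 1) := by omega
          calc (t + 1) * (3 * Nat.centralBinom t) = ((t + 1) * 3) * Nat.centralBinom t := by ring
            _ ≤ (2 * (2 * t + 1)) * Nat.centralBinom t := Nat.mul_le_mul_right _ h4
        exact Nat.le_of_mul_le_mul_left h3 (by omega)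
      obtain ⟨s, rfl⟩ : ∃ s, t = s + 4 := ⟨t - 4, by omega⟩
      have e1 : 2 * (s + 4) - 1 = 2 * s + 7 := by omega
      have e2 : 2 * (s + 4 + 1) - 1 = 2 * s + 9 := by omega
      rw [e1] at ih
      rw [e2]
      nlinarith
  exact key

theorem two_pow_six {j : ℕ} (hj : 5 ≤ j) : 6 * j + 2 ≤ 2 ^ j := by
  induction j, hj using Nat.le_induction with
  | base => norm_num
  | succ j hj ih => rw [pow_succ]; omega

theorem tri_mono {a b : ℕ} (h : a ≤ b) : a * (a - 1) / 2 ≤ b * (b - 1) / 2 :=
  Nat.div_le_div_right (Nat.mul_le_mul h (by omega))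

section Big

variable {Q : Type} [Group Q] [Finite Q] {A : Subgroup Q} {Γ : Subgroup (MulAut Q)} {ι : Type} [Fintype ι]
    [DecidableEq ι] {F : Type} [Field F] [Fintype F] {S P : Subgroup (GL ι F)}

/-- the elements of `Ω` are isometries -/
theorem omega_isom {Qf : (ι → F) → F} {g : GL ι F} (hg : g ∈ omegaGL Qf) (v : ι → F) :
    Qf ((g : Matrix ι ι F) *ᵥ v) = Qf v := by
  obtain ⟨x, -, rfl⟩ := hg
  exact x.2 v v

/-- the invariant form -/
theorem form_of_kind (b : Big A Γ S P) :
    (S = specialLinear ι F ∧ Fintype.card F ^ (Fintype.card ι ^ 2 - 2) ≤ Nat.card Q) ∨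
    (∃ (σ : F ≃+* F) (f : (ι → F) → (ι → F) → F), SForm σ f ∧
      ∀ g ∈ P, ∀ x y, f ((g : Matrix ι ι F) *ᵥ x) ((g : Matrix ι ι F) *ᵥ y) = f x y) := by
  rcases b.kind with ⟨hS, ho, -, -, -⟩ | ⟨f, hf, hS, h3, ho, -, -⟩ | ⟨q, hq, σ, f, hf, hS, -, ho, -, -⟩ |
    ⟨Qf, hQ, hS, ho, -⟩
  · exact Or.inl ⟨hS, ho⟩
  · exact Or.inr ⟨_, f, SForm.of_symplectic hf, fun g hg x y => hS _ ⟨g, b.le_S hg, rfl⟩ x y⟩
  · exact Or.inr ⟨σ, f, SForm.of_unitary hf, fun g hg x y => hS _ ⟨g, b.le_S hg, rfl⟩ x y⟩
  · refine Or.inr ⟨_, _, SForm.of_quadratic hQ, fun g hg x y => ?_⟩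
    have h1 : g ∈ omegaGL Qf := hS ▸ b.le_S hg
    unfold QuadraticMap.polar
    rw [← Matrix.mulVec_add, omega_isom h1, omega_isom h1, omega_isom h1]

/-- the order of `A` -/
theorem card_A_le (b : Big A Γ S P) {K : Type} [Field K] [Fintype K] {d : ℕ} (hd : 2 ≤ d)
    (h4 : d = 2 → 4 ≤ Fintype.card K) (e : socle P ≃* ProjectiveSpecialLinearGroup (Fin d) K) :
    Nat.card A ≤ Fintype.card K ^ (d ^ 2) := by
  haveI : Finite (ProjectiveSpecialLinearGroup (Fin d) K) := by
    unfold ProjectiveSpecialLinearGroup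
    infer_instance
  exact (b.hasSoc' e).card_le.trans (card_mulAut_le hd h4)

/-- the comparison of the orders -/
theorem num_le (b : Big A Γ S P) {c s : ℕ} (hUB : Nat.card Q ≤ Nat.card A ^ c)
    (hA : Nat.card A ≤ Fintype.card F ^ s) : Fintype.card ι * (Fintype.card ι - 1) / 2 ≤ s * c + 3 := by
  have h2 := b.two_le
  have h1 : Fintype.card F ^ (Fintype.card ι * (Fintype.card ι - 1) / 2) ≤ Fintype.card F ^ (s * c + 3) := by
    refine b.ord.trans ?_
    calc 8 * Nat.card Q ≤ Fintype.card F ^ 3 * (Fintype.card F ^ s) ^ c :=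
          Nat.mul_le_mul ((by norm_num : 8 = 2 ^ 3).le.trans (Nat.pow_le_pow_left h2 3))
            (hUB.trans (Nat.pow_le_pow_left hA c))
      _ = Fintype.card F ^ (s * c + 3) := by rw [← pow_mul, ← pow_add, add_comm]
  exact (Nat.pow_le_pow_iff_right (by omega)).1 h1

theorem num_lin (ho : Fintype.card F ^ (Fintype.card ι ^ 2 - 2) ≤ Nat.card Q) {c s : ℕ}
    (hUB : Nat.card Q ≤ Nat.card A ^ c) (hA : Nat.card A ≤ Fintype.card F ^ s) : Fintype.card ι ^ 2 - 2 ≤ s * c := by
  have h2 := Fintype.one_lt_card (α := F)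
  have h1 : Fintype.card F ^ (Fintype.card ι ^ 2 - 2) ≤ Fintype.card F ^ (s * c) := by
    refine ho.trans (hUB.trans ?_)
    rw [pow_mul]
    exact Nat.pow_le_pow_left hA c
  exact (Nat.pow_le_pow_iff_right (by omega)).1 h1

/-- **`d = 2`** -/
theorem two (b : Big A Γ S P) {K : Type} [Field K] [Fintype K] (hc : ringChar F = ringChar K)
    (e : socle P ≃* ProjectiveSpecialLinearGroup (Fin 2) K) (h4 : 4 ≤ Fintype.card K)
    (hUB : Nat.card Q ≤ Nat.card A ^ 5) : False := by
  haveI : Fact (ringChar F).Prime := ⟨CharP.char_is_prime F (ringChar F)⟩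
  haveI : CharP K (ringChar F) := by rw [hc]; exact ringChar.charP K
  obtain ⟨j, m, hj0, hj, hm, hn⟩ := H875.Psl2.exists_pow (ringChar F) (core_of_residual b.core) e
  have hA := card_A_le b (d := 2) le_rfl (fun _ => h4) e
  rw [hj, ← pow_mul] at hA
  have h1 := num_le b hUB hA
  have h13 := b.thirteen
  have h2 : 2 ^ j ≤ Fintype.card ι := by rw [hn]; exact Nat.pow_le_pow_left hm j
  rcases Nat.lt_or_ge j 5 with h5 | h5
  · rcases Nat.lt_or_ge j 4 with h6 | h6
    · have h7 := tri_mono h13
      norm_num at h7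
      omega
    · obtain rfl : j = 4 := by omega
      have h7 := tri_mono h2
      norm_num at h7
      omega
  · have h6 := two_pow_six h5
    have h7 := tri_mono (h6.trans h2)
    have h8 : 20 * j + 4 ≤ (6 * j + 2) * (6 * j + 2 - 1) / 2 := by
      rw [Nat.le_div_iff_mul_le (by norm_num)]
      have e1 : 6 * j + 2 - 1 = 6 * j + 1 := by omega
      rw [e1]
      nlinarith
    omega

/-- **`d = 3`** -/
theorem three (b : Big A Γ S P) {K : Type} [Field K] [Fintype K] (hc : ringChar F = ringChar K)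
    (e : socle P ≃* ProjectiveSpecialLinearGroup (Fin 3) K) (hUB : Nat.card Q ≤ Nat.card A ^ 6) : False := by
  haveI : Fact (ringChar F).Prime := ⟨CharP.char_is_prime F (ringChar F)⟩
  haveI : CharP K (ringChar F) := by rw [hc]; exact ringChar.charP K
  have hC := core_of_residual b.core
  obtain ⟨j, hj0, hj⟩ := H905.Md.psl_card (l := 2) (ringChar F) hC.absIrred hC.perfect (by norm_num)
    (fun h => by omega) e hC.no_subfield
  have hA := card_A_le b (d := 3) (by norm_num) (fun h => by omega) e
  have hj2 : Fintype.card K = Fintype.card F ^ j := by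
    rw [← Nat.card_eq_fintype_card (α := K), ← Nat.card_eq_fintype_card (α := F), hj]
  rw [hj2, ← pow_mul] at hA
  have h1 := num_le b hUB hA
  have h13 := b.thirteen
  have hge := H650.Ppd.card_ge_A (ringChar F) hC (l := 2) le_rfl e hj.symm
  have e3 : (2 + 1).choose 2 = 3 := rfl
  rw [e3] at hge
  rcases Nat.lt_or_ge j 4 with h4 | h4
  · rcases form_of_kind b with ⟨-, ho⟩ | ⟨σ, f, hf, hP⟩
    · have h5 := num_lin ho hUB hA
      have h6 : 13 ^ 2 ≤ Fintype.card ι ^ 2 := Nat.pow_le_pow_left h13 2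
      omega
    · have h7 := tri_mono h13
      norm_num at h7
      have h8 : j = 1 ∨ j = 2 ∨ j = 3 := by omega
      rcases h8 with rfl | rfl | rfl
      · omega
      · have h9 := sd_three (ringChar F) hC e hf hP hj.symm le_rfl
        have h10 := tri_mono h9
        norm_num at h10
        omega
      · have h9 : 21 ≤ Fintype.card ι := by omega
        have h10 := tri_mono h9
        norm_num at h10
        omega
  · have h5 := H650.Ppd.four_lt_two_pow h4
    have h6 : 12 * j - 3 ≤ Fintype.card ι := by omega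
    have h7 := tri_mono h6
    have h8 : 54 * j + 4 ≤ (12 * j - 3) * (12 * j - 3 - 1) / 2 := by
      rw [Nat.le_div_iff_mul_le (by norm_num)]
      obtain ⟨i, rfl⟩ : ∃ i, j = i + 4 := ⟨j - 4, by omega⟩
      have e1 : 12 * (i + 4) - 3 = 12 * i + 45 := by omega
      have e2 : 12 * (i + 4) - 3 - 1 = 12 * i + 44 := by omega
      rw [e2, e1]
      nlinarith
    omega

/-- `d ≥ 4`, `|K| = 2`: the natural module of `SL` -/
theorem natural (b : Big A Γ S P) {K : Type} [Field K] [Fintype K] (hK : Fintype.card K = 2) {d : ℕ} (hd : 2 ≤ d)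
    (hF : Fintype.card F = 2) (hn : Fintype.card ι = d)
    (e : socle P ≃* ProjectiveSpecialLinearGroup (Fin d) K) : False := by
  classical
  haveI : Finite (ProjectiveSpecialLinearGroup (Fin d) K) := by
    unfold ProjectiveSpecialLinearGroup
    infer_instance
  have h1 := Nat.le_of_dvd Nat.card_pos (b.hasSoc' e).card_dvd
  have h2 := S0243.result (F := K) hK d hd
  rw [show 2 - 1 = 1 from rfl, Nat.gcd_one_right, one_mul, one_mul] at h2
  have h3 : Nat.card Q ≤ Nat.card S := Nat.card_le_card_of_surjective _ b.m.surj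
  have h4 : Nat.card S ≤ Nat.card (GL ι F) := Subgroup.card_le_card_group S
  have h5 : Nat.card (GL ι F) = Nat.card (GL (Fin d) F) := by
    have eq : ι ≃ Fin d := Fintype.equivFinOfCardEq hn
    exact Nat.card_congr (Units.mapEquiv (Matrix.reindexAlgEquiv F F eq).toMulEquiv).toEquiv
  rw [Matrix.card_GL_field, hF] at h5
  have h6 : Nat.card Q ≤ Nat.card A := by
    rw [h5, ← h2] at h4
    exact h3.trans (h4.trans h1)
  exact b.ept.max.1 (Subgroup.eq_top_of_card_eq A (le_antisymm (Subgroup.card_le_card_group A) h6))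

/-- **`d ≥ 4`, `|K| = 2`** -/
theorem four (b : Big A Γ S P) {K : Type} [Field K] [Fintype K] (hc : ringChar F = ringChar K)
    (hK : Fintype.card K = 2) {l : ℕ} (hl : 3 ≤ l)
    (e : socle P ≃* ProjectiveSpecialLinearGroup (Fin (l + 1)) K) (hUB : Nat.card Q ≤ Nat.card A ^ 5) : False := by
  haveI : Fact (ringChar F).Prime := ⟨CharP.char_is_prime F (ringChar F)⟩
  haveI : CharP K (ringChar F) := by rw [hc]; exact ringChar.charP K
  have hC := core_of_residual b.core
  have h2 := b.two_le
  have h13 := b.thirteen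
  obtain ⟨j, hj0, hj⟩ := H905.Md.psl_card (l := l) (ringChar F) hC.absIrred hC.perfect (by omega)
    (fun h => by omega) e hC.no_subfield
  have hF : Fintype.card F = 2 := by
    rw [Nat.card_eq_fintype_card, Nat.card_eq_fintype_card, hK] at hj
    refine le_antisymm ?_ h2
    rw [← hj]
    exact Nat.le_self_pow (by omega) _
  have hA := card_A_le b (d := l + 1) (by omega) (fun h => by omega) e
  have hKF : Fintype.card K = Fintype.card F := hK.trans hF.symm
  rw [hKF] at hA
  have h1 := num_le b hUB hA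
  have hn : ∀ {t : ℕ}, t ≤ Fintype.card ι → t * (t - 1) / 2 ≤ (l + 1) ^ 2 * 5 + 3 := fun ht => (tri_mono ht).trans h1
  -- the case of `SL`
  have hlin : ¬ (S = specialLinear ι F ∧ Fintype.card F ^ (Fintype.card ι ^ 2 - 2) ≤ Nat.card Q) := by
    rintro ⟨-, ho⟩
    have h5 := num_lin ho hUB hA
    have h6 : 13 ^ 2 ≤ Fintype.card ι ^ 2 := Nat.pow_le_pow_left h13 2
    by_cases hch : Fintype.card ι < (l + 1).choose 2
    · have h7 := H905.Md.psl_dim (ringChar F) hC.absIrred hC.perfect (by omega) (fun h => by omega) e (by omega)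
        (Or.inl hch)
      exact natural b hK (by omega) hF h7 e
    · push Not at hch
      have h7 : (l + 1).choose 2 * 2 = (l + 1) * l := by
        rw [Nat.choose_two_right, Nat.add_sub_cancel, Nat.div_mul_cancel]
        rw [mul_comm]
        exact (Nat.even_mul_succ_self l).two_dvd
      rcases Nat.lt_or_ge l 6 with h8 | h8
      · have h9 : l = 3 ∨ l = 4 ∨ l = 5 := by omega
        rcases h9 with rfl | rfl | rfl
        · omega
        · omega
        · have h10 : 15 ≤ Fintype.card ι := by omega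
          have h11 : 15 ^ 2 ≤ Fintype.card ι ^ 2 := Nat.pow_le_pow_left h10 2
          omega
      · have h10 : 3 * (l + 1) ≤ Fintype.card ι := by nlinarith
        have h11 : (3 * (l + 1)) ^ 2 ≤ Fintype.card ι ^ 2 := Nat.pow_le_pow_left h10 2
        have h12 : (3 * (l + 1)) ^ 2 = 9 * (l + 1) ^ 2 := by ring
        have h14 : 49 ≤ (l + 1) ^ 2 := by nlinarith
        omega
  rcases form_of_kind b with h3 | ⟨σ, f, hf, hP⟩
  · exact hlin h3
  · have hdim := sd_bound (ringChar F) hC (l := l) (by omega) e hf hP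
    rcases Nat.lt_or_ge l 4 with h4 | h4
    · obtain rfl : l = 3 := by omega
      -- even dimension
      have hev : Even (Fintype.card ι) := by
        rcases b.kind with ⟨hS, ho, -, -, -⟩ | ⟨f, hf, hS, h3, ho, -, -⟩ | ⟨q, hq, σ, f, hf, hS, -, ho, -, -⟩ |
          ⟨Qf, hQ, hS, ho, -⟩
        · exact absurd ⟨hS, ho⟩ hlin
        · omega
        · rw [hF] at hq
          exfalso
          have h5 : q < 2 := by
            by_contra h6
            push Not at h6
            have := Nat.pow_le_pow_left h6 2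
            omega
          interval_cases q <;> omega
        · have h20 : (2 : F) = 0 := by
            have := Nat.cast_card_eq_zero F
            rw [hF] at this
            exact_mod_cast this
          have hp := hQ.polar_bilinear
          have halt : ∀ v, QuadraticMap.polar Qf v v = 0 := by
            intro v
            have h0 : Qf (v + v) = 4 * Qf v := by
              have h1 := hQ.smul 2 v
              rw [two_smul] at h1
              rw [h1]; ring
            show Qf (v + v) - Qf v - Qf v = 0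
            rw [h0]
            linear_combination Qf v * h20
          have hs : IsSymplecticForm (QuadraticMap.polar Qf) := ⟨hp, fun v w => by
            have h1 : QuadraticMap.polar Qf v w = QuadraticMap.polar Qf w v := QuadraticMap.polar_comm _ _ _
            rw [h1]
            linear_combination QuadraticMap.polar Qf w v * h20, halt, hQ.nondegenerate⟩
          have h3 := Cfsg.Agent.H953.even_finrank_of_alt (Cfsg.Agent.H953.toBil hs) halt (by
            intro u hu
            by_contra hne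
            obtain ⟨-, x, hx⟩ := hQ.nondegenerate u hne
            exact hx (hu x))
          rwa [Module.finrank_fintype_fun_eq_card] at h3
      obtain ⟨r, hr⟩ := hev
      have h5 := hn (t := 14) (by omega)
      norm_num at h5
    · rcases Nat.lt_or_ge l 6 with h6 | h6
      · have h20 : 20 ≤ Fintype.card ι := by
          have h7 : l = 4 ∨ l = 5 := by omega
          rcases h7 with rfl | rfl
          · rcases hdim with h8 | ⟨t, h8, -⟩
            · exact h8
            · omega
          · rcases hdim with h8 | ⟨t, h8, h9⟩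
            · omega
            · obtain rfl : t = 3 := by omega
              have h10 : (2 * 3).choose 3 = 20 := by decide
              omega
        have h7 := hn h20
        have h8 : (l + 1) ^ 2 ≤ 6 ^ 2 := Nat.pow_le_pow_left (by omega) 2
        norm_num at h7
        omega
      · have h7 : (l + 1) * l ≤ Fintype.card ι := by
          rcases hdim with h8 | ⟨t, h8, h9⟩
          · exact h8
          · have h10 := centralBinom_ge (t := t) (by omega)
            rw [← h8] at h10 h9
            rw [Nat.add_sub_cancel] at h10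
            exact h10.trans h9
        have h8 := hn h7
        have h9 : (l + 1) ^ 2 * 5 + 4 ≤ (l + 1) * l * ((l + 1) * l - 1) / 2 := by
          rw [Nat.le_div_iff_mul_le (by norm_num)]
          obtain ⟨i, rfl⟩ : ∃ i, l = i + 6 := ⟨l - 6, by omega⟩
          have e1 : (i + 6 + 1) * (i + 6) - 1 = i ^ 2 + 13 * i + 41 := by
            have : (i + 6 + 1) * (i + 6) = i ^ 2 + 13 * i + 42 := by ring
            omega
          rw [e1]
          have e2 : (i + 6 + 1) * (i + 6) = i ^ 2 + 13 * i + 42 := by ring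
          rw [e2]
          nlinarith [sq_nonneg i, Nat.zero_le i]
        omega

end Big

/-- an upper bound of `|Q|` for the socles `PSL(d, K)` in own characteristic -/
def UBPSL (d c : ℕ) : Prop := ∀ {Q : Type} [Group Q] [Finite Q] {A : Subgroup Q}
    {Γ : Subgroup (MulAut Q)} {ι : Type} [Fintype ι] [DecidableEq ι] {F : Type} [Field F] [Fintype F]
    {S P : Subgroup (GL ι F)}, Big A Γ S P → ∀ (K : Type) [Field K] [Fintype K],
    (d = 2 → 4 ≤ Fintype.card K) → ringChar F = ringChar K →
    Nonempty (socle P ≃* Matrix.ProjectiveSpecialLinearGroup (Fin d) K) → Nat.card Q ≤ Nat.card A ^ c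

/-- the same for `d ≥ d0` and `|K| = 2` -/
def UBPSLTwo (d0 c : ℕ) : Prop := ∀ {Q : Type} [Group Q] [Finite Q] {A : Subgroup Q}
    {Γ : Subgroup (MulAut Q)} {ι : Type} [Fintype ι] [DecidableEq ι] {F : Type} [Field F] [Fintype F]
    {S P : Subgroup (GL ι F)}, Big A Γ S P → ∀ (K : Type) [Field K] [Fintype K] (d : ℕ), d0 ≤ d →
    Fintype.card K = 2 → ringChar F = ringChar K →
    Nonempty (socle P ≃* Matrix.ProjectiveSpecialLinearGroup (Fin d) K) → Nat.card Q ≤ Nat.card A ^ c

/-- `d ≥ d0`, `|K| > 2` is impossible -/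
def KillPSLBig (d0 : ℕ) : Prop := ∀ {Q : Type} [Group Q] [Finite Q] {A : Subgroup Q}
    {Γ : Subgroup (MulAut Q)} {ι : Type} [Fintype ι] [DecidableEq ι] {F : Type} [Field F] [Fintype F]
    {S P : Subgroup (GL ι F)}, Big A Γ S P → ∀ (K : Type) [Field K] [Fintype K] (d : ℕ), d0 ≤ d →
    2 < Fintype.card K → ringChar F = ringChar K →
    Nonempty (socle P ≃* Matrix.ProjectiveSpecialLinearGroup (Fin d) K) → False

/-- **Socle `PSL` in own characteristic.** -/
theorem ownPSL_of (h2 : UBPSL 2 5) (h3 : UBPSL 3 6) (h4 : UBPSLTwo 4 5) (hk : KillPSLBig 4) : OwnPSL := by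
  intro Q _ _ A Γ ι _ _ F _ _ S P b K _ _ d hd hd4 hc hiso
  rcases Nat.lt_or_ge d 4 with h | h
  · have h5 : d = 2 ∨ d = 3 := by omega
    rcases h5 with rfl | rfl
    · obtain ⟨e⟩ := hiso
      exact two b hc e (hd4 rfl) (h2 b K hd4 hc ⟨e⟩)
    · obtain ⟨e⟩ := hiso
      exact three b hc e (h3 b K hd4 hc ⟨e⟩)
  · rcases Nat.lt_or_ge 2 (Fintype.card K) with h5 | h5
    · exact hk b K d h h5 hc hiso
    · have hK : Fintype.card K = 2 := le_antisymm h5 Fintype.one_lt_card
      obtain ⟨l, rfl⟩ : ∃ l, d = l + 1 := ⟨d - 1, by omega⟩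
      have h6 := h4 b K (l + 1) h hK hc hiso
      obtain ⟨e⟩ := hiso
      exact four b hc hK (by omega) e h6

/-- **Socle `PSL` in own characteristic**: everything of rank `≥ 2` over `|K| > 2` dies by the chain. -/
theorem ownPSL_of' (h2 : UBPSL 2 5) (h4 : UBPSLTwo 3 5) (hk : KillPSLBig 3) : OwnPSL := by
  refine ownPSL_of h2 ?_ (fun {Q} _ _ {A} {Γ} {ι} _ _ {F} _ _ {S P} b K _ _ d hd => h4 b K d (by omega))
    (fun {Q} _ _ {A} {Γ} {ι} _ _ {F} _ _ {S P} b K _ _ d hd => hk b K d (by omega))
  intro Q _ _ A Γ ι _ _ F _ _ S P b K _ _ _ hc hiso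
  rcases Nat.lt_or_ge 2 (Fintype.card K) with h5 | h5
  · exact (hk b K 3 le_rfl h5 hc hiso).elim
  · exact (h4 b K 3 le_rfl (le_antisymm h5 Fintype.one_lt_card) hc hiso).trans
      (Nat.pow_le_pow_right Nat.card_pos (by norm_num))

end Cfsg.Agent.H987.EP
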