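import Cfsg.Agent.H12.EP.Own
import Cfsg.Agent.H12.EP.GalTwo
import Cfsg.Agent.H987.EP.OwnPSL
import Cfsg.Agent.H107.EP.Eight

/-!
# S3499-VII, own characteristic: socle `PSL(d, 2)` (helper987)
-/

set_option autoImplicit false
set_option linter.unusedSectionVars false

namespace Cfsg.Agent.H987.EP

open Subgroup Matrix Cfsg Cfsg.Geo Cfsg.Agent.H284 Cfsg.Agent.H419.EP Cfsg.Agent.H12.EP.BT Cfsg.Agent.H59.EP
open Cfsg.Agent.H915.LD (Core Soc core_of_residual)
open scoped MatrixGroups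

theorem fam_two_ge {d : ℕ} (hd : 1 ≤ d) :
    (2 ^ (d + 1) + 4) * 2 ^ (d * (d + 1) / 2) ≤ 2 ^ (d + 1) * (4 * fam 2 d) := by
  induction d, hd using Nat.le_induction with
  | base => decide
  | succ d hd ih =>
    have h1 : (d + 1) * (d + 1 + 1) / 2 = d * (d + 1) / 2 + (d + 1) := by
      have : (d + 1) * (d + 1 + 1) = d * (d + 1) + 2 * (d + 1) := by ring
      rw [this, Nat.add_mul_div_left _ _ (by norm_num)]
    have h2 : fam 2 (d + 1) = fam 2 d * (2 ^ (d + 1) - 1) := rfl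
    rw [h1, h2, pow_add 2 (d * (d + 1) / 2) (d + 1), pow_succ 2 (d + 1)]
    have hu : 4 ≤ 2 ^ (d + 1) := by
      calc 4 = 2 ^ 2 := rfl
        _ ≤ _ := Nat.pow_le_pow_right (by norm_num) (by omega)
    generalize 2 ^ (d + 1) = u at ih hu ⊢
    generalize 2 ^ (d * (d + 1) / 2) = T at ih ⊢
    generalize fam 2 d = f at ih ⊢
    obtain ⟨w, rfl⟩ : ∃ w, u = w + 4 := ⟨u - 4, by omega⟩
    have e1 : w + 4 - 1 = w + 3 := by omega
    rw [e1]
    have h3 := Nat.mul_le_mul_left (2 * (w + 3)) ih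
    calc ((w + 4) * 2 + 4) * (T * (w + 4)) ≤ 2 * (w + 3) * ((w + 4 + 4) * T) := by nlinarith [Nat.zero_le (w * T)]
      _ ≤ 2 * (w + 3) * ((w + 4) * (4 * f)) := h3
      _ = (w + 4) * 2 * (4 * (f * (w + 3))) := by ring

theorem two_pow_le_fam {d : ℕ} (hd : 1 ≤ d) : 2 ^ (d * (d + 1) / 2) ≤ 4 * fam 2 d := by
  have h1 := fam_two_ge hd
  have h2 : 2 ^ (d + 1) * 2 ^ (d * (d + 1) / 2) ≤ 2 ^ (d + 1) * (4 * fam 2 d) :=
    (Nat.mul_le_mul_right _ (by omega)).trans h1
  exact Nat.le_of_mul_le_mul_left h2 (by positivity)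

theorem fam_eq_prod (b d : ℕ) : fam b d = ∏ i ∈ Finset.range d, (b ^ (i + 1) - 1) := by
  induction d with
  | zero => rfl
  | succ d ih => rw [Finset.prod_range_succ, ← ih]; rfl

/-- `|GL(d, 2)|` -/
theorem card_GL_two {K : Type*} [Field K] [Fintype K] (hK : Fintype.card K = 2) (d : ℕ) :
    Nat.card (GL (Fin d) K) = 2 ^ (d * (d - 1) / 2) * fam 2 d := by
  rw [Matrix.card_GL_field, hK]
  have h1 : ∀ i ∈ Finset.range d, 2 ^ d - 2 ^ i = 2 ^ i * (2 ^ (d - i) - 1) := by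
    intro i hi
    have := Finset.mem_range.1 hi
    rw [Nat.mul_sub, mul_one, ← pow_add]
    congr 2
    omega
  rw [Finset.prod_range (fun i => 2 ^ d - 2 ^ i) |>.symm, Finset.prod_congr rfl h1, Finset.prod_mul_distrib,
    Finset.prod_pow_eq_pow_sum, Finset.sum_range_id, fam_eq_prod]
  congr 1
  rw [← Finset.prod_range_reflect]
  refine Finset.prod_congr rfl fun i hi => ?_
  have := Finset.mem_range.1 hi
  congr 2
  omega

theorem two_pow_le_GL {K : Type*} [Field K] [Fintype K] (hK : Fintype.card K = 2) {d : ℕ} (hd : 2 ≤ d) :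
    2 ^ (d ^ 2 - 2) ≤ Nat.card (GL (Fin d) K) := by
  have h1 := two_pow_le_fam (d := d) (by omega)
  have e1 : d * (d - 1) / 2 + d * (d + 1) / 2 = d ^ 2 := by
    obtain ⟨m, rfl⟩ : ∃ m, d = m + 1 := ⟨d - 1, by omega⟩
    rw [Nat.add_sub_cancel]
    have h2 : (m + 1) * (m + 1 + 1) / 2 = (m + 1) * m / 2 + (m + 1) := by
      have : (m + 1) * (m + 1 + 1) = (m + 1) * m + 2 * (m + 1) := by ring
      rw [this, Nat.add_mul_div_left _ _ (by norm_num)]
    have h3 : (m + 1) * m / 2 * 2 = (m + 1) * m := Nat.div_mul_cancel (by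
      rw [mul_comm]; exact (Nat.even_mul_succ_self m).two_dvd)
    rw [h2]
    nlinarith
  have h4 : 4 ≤ d ^ 2 := by nlinarith
  have h5 : 4 * 2 ^ (d ^ 2 - 2) ≤ 4 * Nat.card (GL (Fin d) K) := by
    rw [card_GL_two hK]
    calc 4 * 2 ^ (d ^ 2 - 2) = 2 ^ (d ^ 2) := by
          rw [show (4 : ℕ) = 2 ^ 2 from rfl, ← pow_add]
          congr 1
          omega
      _ = 2 ^ (d * (d - 1) / 2) * 2 ^ (d * (d + 1) / 2) := by rw [← pow_add, e1]
      _ ≤ 2 ^ (d * (d - 1) / 2) * (4 * fam 2 d) := Nat.mul_le_mul_left _ h1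
      _ = 4 * (2 ^ (d * (d - 1) / 2) * fam 2 d) := by ring
  omega

section Big

variable {Q : Type} [Group Q] [Finite Q] {A : Subgroup Q} {Γ : Subgroup (MulAut Q)} {ι : Type} [Fintype ι]
    [DecidableEq ι] {F : Type} [Field F] [Fintype F] {S P : Subgroup (GL ι F)}

/-- the order of `PSL(d, 2)` and of its automorphism group -/
theorem card_psl_two {K : Type} [Field K] [Fintype K] (hK : Fintype.card K = 2) {d : ℕ} (hd : 3 ≤ d) :
    Nat.card (ProjectiveSpecialLinearGroup (Fin d) K) = Nat.card (GL (Fin d) K) ∧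
      Nat.card (MulAut (ProjectiveSpecialLinearGroup (Fin d) K)) = 2 * Nat.card (GL (Fin d) K) := by
  classical
  constructor
  · have h1 := S0243.result (F := K) hK d (by omega)
    rw [show 2 - 1 = 1 from rfl, Nat.gcd_one_right, one_mul, one_mul] at h1
    rw [h1, Matrix.card_GL_field, hK]
  · haveI : Fact (Nat.Prime 2) := ⟨Nat.prime_two⟩
    have : NeZero d := ⟨by omega⟩
    have h1 := S0813.result (F := K) 2 1 (by norm_num) (by rw [hK]; norm_num) d (by omega) (fun h => by omega)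
    have h2 : Nat.card (ProjGenLinGroup (Fin d) K) * (Fintype.card K - 1) = Nat.card (GL (Fin d) K) :=
      Cfsg.Agent.ClassicalGeometry.PSL2Basic.card_PGL_mul (Fin d) K
    rw [hK, show 2 - 1 = 1 from rfl, mul_one] at h2
    rw [h1, h2, if_neg (by omega), mul_one]

/-- **the upper bound of `|Q|`** -/
theorem card_two (b : Big A Γ S P) (hg : TwoGen.{0}) {K : Type} [Field K] [Fintype K]
    (hK : Fintype.card K = 2) {d : ℕ} (hd : 3 ≤ d)
    (e : socle P ≃* ProjectiveSpecialLinearGroup (Fin d) K) {j : ℕ} (hj0 : 1 ≤ j) (hj : Nat.card A < 60 ^ 60 ^ j) :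
    Nat.card Q ≤ Nat.card A ^ (4 + j) := by
  classical
  haveI : Fact (Nat.Prime 2) := ⟨Nat.prime_two⟩
  haveI : CharP K 2 := by
    obtain ⟨p, hp⟩ := CharP.exists K
    obtain ⟨n, hpp, hn⟩ := FiniteField.card K p
    rw [hK] at hn
    have h3 : p ∣ 2 := hn ▸ dvd_pow_self p n.pos.ne'
    rwa [(Nat.prime_dvd_prime_iff_eq hpp Nat.prime_two).1 h3] at hp
  haveI : Finite (ProjectiveSpecialLinearGroup (Fin d) K) := by
    unfold ProjectiveSpecialLinearGroup
    infer_instance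
  have hsoc := b.hasSoc' e
  have := b.core.simple
  have hL : IsSimpleGroup (ProjectiveSpecialLinearGroup (Fin d) K) := e.symm.isSimpleGroup
  have hLn : ¬ ∀ x y : ProjectiveSpecialLinearGroup (Fin d) K, x * y = y * x := by
    intro h
    apply b.core.nonabelian
    refine ⟨⟨fun x y => e.injective ?_⟩⟩
    rw [map_mul, map_mul]
    exact h _ _
  have hF : Cfsg.Agent.KFacts.RgdFilt.HasFilt 2 (ProjectiveSpecialLinearGroup (Fin d) K) := by
    obtain ⟨n, rfl⟩ : ∃ n, d = n + 1 := ⟨d - 1, by omega⟩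
    exact Cfsg.Agent.KFacts.RgdFiltClass.hasFilt_PSL n
  obtain ⟨hc1, hc2⟩ := card_psl_two hK hd
  have hGL : 0 < Nat.card (GL (Fin d) K) := Nat.card_pos
  have hle : Nat.card A ≤ 2 * Nat.card (GL (Fin d) K) := by
    rw [← hc2]; exact hsoc.card_le
  have hdvd : Nat.card A ∣ 2 * Nat.card (GL (Fin d) K) := by
    rw [← hc2]; exact Cfsg.Agent.H107.EP.HasSoc.dvd_aut hsoc
  have hge : Nat.card (GL (Fin d) K) ≤ Nat.card A := by
    rw [← hc1]; exact Nat.le_of_dvd Nat.card_pos hsoc.card_dvd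
  have ha : ¬ 2 ^ 2 * Nat.card (ProjectiveSpecialLinearGroup (Fin d) K) ∣ Nat.card A := by
    rw [hc1]
    intro h
    have := Nat.le_of_dvd Nat.card_pos h
    omega
  have hC : galSumNe 2 (Nat.card A) ≤ Nat.card A := by
    have h1 : Nat.card A ∣ 2 ^ (d * (d - 1) / 2 + 1) * fam 2 d := by
      rw [pow_succ, mul_assoc, mul_left_comm, ← card_GL_two hK]
      exact hdvd
    calc galSumNe 2 (Nat.card A) ≤ galSum (fam 2 d) := galSumNe_le (fam_pos (by norm_num) d).ne' h1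
      _ ≤ 2 ^ (d ^ 2 - 2) := galSum_fam_two hd
      _ ≤ Nat.card (GL (Fin d) K) := two_pow_le_GL hK (by omega)
      _ ≤ _ := hge
  have h1 := card_own_one b.simple b.ept hg hsoc hL hLn hF ha hj0 hj (clsLe_gal 2) hC
  omega

end Big

end Cfsg.Agent.H987.EP
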