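import Cfsg.Agent.H905.MdE

/-!
# The support of a self-dual simple module is symmetric (helper987, S3499 task 6108)

`R : RGD cs h p T n X`, `ρ` simple in characteristic `p`, `Jx` = the nodes `i` such that `X_{-i}` fixes `V^U`.

* `mem_Jx_iff` : `i ∈ Jx` iff `dim V^{V_i} = dim V^U`;
* `finrank_fx_dual` : `dim (V^*)^{V_J^-} = dim V^{V_J}`;
* **`mem_Jx_opp`** : if `dim V^B = dim (V^*)^B` for all subgroups `B` and `w₀ α_i = -α_{τ i}` then `i ∈ Jx ↔ τ i ∈ Jx`;
* `finrank_fx_of_semilinear` : the hypothesis holds if there is an invariant nondegenerate sesquilinear form.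
-/

set_option autoImplicit false
set_option linter.unusedSectionVars false
set_option linter.style.haveILetI false

namespace Cfsg.Agent.H987.EP

open CoxeterSystem Cfsg.Agent.ChevalleyStructure.CoxeterGeom Cfsg.Agent.Tits.Roots Cfsg.Agent.Tits.Core
  Cfsg.Agent.Tits.Exchange Cfsg.Agent.Nodes.Reps Cfsg.Agent.Nodes.BNOf Cfsg.Agent.Nodes.StabComb
  Cfsg.Agent.Nodes.Bruhat Cfsg.Agent.Nodes.OppDec Cfsg.Agent.Nodes.LeviDec Cfsg.Agent.KFacts.RgdOpp
  Cfsg.Agent.Omega.CR Cfsg.Agent.Omega.FOne.Lift.Sd Cfsg.Agent.H905.Md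

variable {I W Y : Type*} [Fintype I] [DecidableEq I] [Group W] [Group Y] {M : CoxeterMatrix I}
  {cs : CoxeterSystem M W} {A : I → I → ℤ} {h : IsCartan M A} {p : ℕ} {T : Subgroup Y} {n : I → Y}
  {X : (I → ℤ) → Subgroup Y}

variable {k V : Type*} [Field k] [AddCommGroup V] [Module k V]

section roots

/-- the coordinates of `w x` -/
theorem rep_coord {w : W} {τ : Equiv.Perm I} (hw : ∀ i, rep cs h w (sr i) = -sr (τ i)) (x : I → ℤ) (i : I) :
    rep cs h w x (τ i) = - x i := by
  have h1 : (LinearMap.proj (τ i) : (I → ℤ) →ₗ[ℤ] ℤ).comp (rep cs h w) = -LinearMap.proj i := by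
    refine LinearMap.pi_ext' fun j => LinearMap.ext_ring ?_
    change rep cs h w (sr j) (τ i) = -((sr j : I → ℤ) i)
    rw [hw, Pi.neg_apply]
    congr 1
    by_cases hji : j = i
    · subst hji
      rw [sr_self, sr_self]
    · rw [sr_ne (Ne.symm hji), sr_ne (fun e => hji (τ.injective e).symm)]
  exact congrArg (fun f : (I → ℤ) →ₗ[ℤ] ℤ => f x) h1

theorem rep_nonneg {w : W} {τ : Equiv.Perm I} (hw : ∀ i, rep cs h w (sr i) = -sr (τ i)) {x : I → ℤ} (hx : 0 ≤ x) :
    0 ≤ -rep cs h w x := by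
  intro j
  obtain ⟨i, rfl⟩ := τ.surjective j
  rw [Pi.neg_apply, rep_coord hw, neg_neg]
  exact hx i

end roots

section

variable (R : RGD cs h p T n X) [Finite Y] [Finite W] [Fact p.Prime] [CharP k p]
  {ρ : Y →* Module.End k V} [FiniteDimensional k V]
  (hirr : ∀ L : Submodule k V, Ivt ρ (GG cs h T X) L → L = ⊥ ∨ L = ⊤)
include R hirr

/-- the nodes of `Jx` by a dimension -/
theorem mem_Jx_iff [Nontrivial V] (i : I) : i ∈ Jx cs h X ρ ↔
    Module.finrank k (fx ρ (VJ cs h X {i})) = Module.finrank k (D cs h X ρ) := by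
  constructor
  · intro hi
    rw [← Le_eq R hirr {i}, Le_single R hirr i]
    have h1 : Sp ρ (X (-sr i)) (D cs h X ρ) = D cs h X ρ := by
      refine le_antisymm (Sp_le le_rfl fun x hx v hv => ?_) (le_Sp ρ)
      rw [hi x hx v hv]
      exact hv
    rw [h1]
  · intro hd
    have h1 : D cs h X ρ = Le cs h T X ρ {i} := by
      refine Submodule.eq_of_le_of_finrank_le (D_le_Le R _) ?_
      rw [Le_eq R hirr, hd]
    have h2 : (D cs h X ρ).map (ρ (n i)) = D cs h X ρ := by
      rw [h1, n_Le R i]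
    intro x hx v hv
    have hv' : ρ (n i)⁻¹ v ∈ D cs h X ρ := by
      have h3 : v ∈ (D cs h X ρ).map (ρ (n i)) := by rw [h2]; exact hv
      obtain ⟨u, hu, rfl⟩ := h3
      rw [rho_inv_rho]
      exact hu
    have h4 : (n i)⁻¹ * x * n i ∈ X (sr i) := by
      have h5 := R.conj_mem' (rp_simple cs R.nsys i) (isRoot_sr cs h i).neg hx
      rwa [cs.inv_simple, map_neg, rep_simple_sr, neg_neg] at h5
    have e : x = n i * ((n i)⁻¹ * x * n i) * (n i)⁻¹ := by group
    rw [e, rho_mul, rho_mul, X_fix R ρ hv' i h4, rho_rho_inv]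

/-- the dual of a parabolic fixed space -/
theorem finrank_fx_dual [Nontrivial V] (J : Set I) :
    Module.finrank k (fx (dualRep ρ) (VNJ cs h X J)) = Module.finrank k (fx ρ (VJ cs h X J)) := by
  have e0 := finrank_chain R hirr J
  have e2 := Submodule.finrank_mono (Les_le_fx R (ρ := ρ) J)
  have e3 := finrank_le_of_pair' (A := Le cs h T X ρ J) (B := fx (dualRep ρ) (VNJ cs h X J))
    fun φ hφ h0 => pair_fx' R hirr hφ h0
  omega

omit hirr in
/-- the fixed space of the opposite radical -/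
theorem finrank_fx_opp {w : W} {τ : Equiv.Perm I} (hw : ∀ i, rep cs h w (sr i) = -sr (τ i)) (i : I) :
    Module.finrank k (fx ρ (VNJ cs h X {τ i})) = Module.finrank k (fx ρ (VJ cs h X {i})) := by
  obtain ⟨g, hg⟩ := exists_rp cs R.nsys w
  have h1 : cj g (VJ cs h X {i}) ≤ VNJ cs h X {τ i} := by
    refine cj_Sup_le R hg (fun x hx => hx.1) ?_
    rintro x ⟨hx, hx0, k, hk, hkx⟩
    refine ⟨(hx.act w).neg, rep_nonneg hw hx0, τ k, fun e => hk (τ.injective e), ?_⟩
    rw [Pi.neg_apply, rep_coord hw, neg_neg]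
    exact hkx
  have h2 : cj g⁻¹ (VNJ cs h X {τ i}) ≤ VJ cs h X {i} := by
    refine cj_Sup_le R hg.inv (fun x hx => by simpa using hx.1.neg) ?_
    rintro x ⟨hx, hx0, k, hk, hkx⟩
    have hx' : IsRoot cs h x := by simpa using hx.neg
    obtain ⟨k', rfl⟩ := τ.surjective k
    have key : ∀ j, rep cs h w⁻¹ x j = - x (τ j) := by
      intro j
      have h3 := rep_coord (cs := cs) (h := h) hw (rep cs h w⁻¹ x) j
      rw [rep_apply_inv] at h3
      omega
    refine ⟨hx'.act w⁻¹, fun j => ?_, k', fun e => hk (congrArg τ e), ?_⟩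
    · rw [key]
      exact hx0 (τ j)
    · rw [key]
      exact hkx
  have h3 : cj g (VJ cs h X {i}) = VNJ cs h X {τ i} := by
    refine le_antisymm h1 fun x hx => ?_
    rw [mem_cj]
    apply h2
    rw [mem_cj]
    have e : g⁻¹⁻¹ * (g⁻¹ * x * g) * g⁻¹ = x := by group
    rw [e]
    exact hx
  rw [← h3, ← map_fx]
  exact finrank_map g _

/-- **The support of a self-dual module is symmetric.** -/
theorem mem_Jx_opp [Nontrivial V]
    (hsd : ∀ B : Subgroup Y, Module.finrank k (fx ρ B) = Module.finrank k (fx (dualRep ρ) B))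
    {w : W} {τ : Equiv.Perm I} (hw : ∀ i, rep cs h w (sr i) = -sr (τ i)) (i : I) :
    i ∈ Jx cs h X ρ ↔ τ i ∈ Jx cs h X ρ := by
  rw [mem_Jx_iff R hirr, mem_Jx_iff R hirr, ← finrank_fx_opp R hw i, hsd, finrank_fx_dual R hirr]

end

/-! ### sesquilinear forms -/

section sesq

variable {G : Type*} [Group G] [FiniteDimensional k V] {ρ : G →* Module.End k V}

/-- a semilinear isomorphism onto the dual -/
theorem finrank_fx_of_semilinear (σ : k ≃+* k) (Θ : V ≃+ Module.Dual k V) (hs : ∀ (c : k) v, Θ (c • v) = σ c • Θ v)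
    (he : ∀ g v, Θ (ρ g v) = dualRep ρ g (Θ v)) (B : Subgroup G) :
    Module.finrank k (fx ρ B) = Module.finrank k (fx (dualRep ρ) B) := by
  have hm : ∀ v, v ∈ fx ρ B ↔ Θ v ∈ fx (dualRep ρ) B := by
    intro v
    constructor
    · intro hv b hb
      rw [← he, hv b hb]
    · intro hv b hb
      apply Θ.injective
      rw [he, hv b hb]
  let j : fx ρ B ≃+ fx (dualRep ρ) B :=
    { toFun := fun v => ⟨Θ v.1, (hm _).1 v.2⟩
      invFun := fun w => ⟨Θ.symm w.1, (hm _).2 (by rw [Θ.apply_symm_apply]; exact w.2)⟩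
      left_inv := fun v => Subtype.ext (Θ.symm_apply_apply _)
      right_inv := fun v => Subtype.ext (Θ.apply_symm_apply _)
      map_add' := fun v w => Subtype.ext (map_add Θ _ _) }
  have h1 := lift_rank_eq_of_equiv_equiv (R := k) (R' := k) (M := fx ρ B) (M' := fx (dualRep ρ) B) σ j σ.bijective
    (fun c v => Subtype.ext (hs c v.1))
  have h2 := congrArg Cardinal.toNat h1
  rwa [Cardinal.toNat_lift, Cardinal.toNat_lift] at h2

end sesq

end Cfsg.Agent.H987.EP
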