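import Cfsg.Agent.H650.Ppd.Psl
import Cfsg.Agent.H987.EP.SelfDual

/-!
# Self-dual simple modules of `SL(l + 1, K)` in its own characteristic (helper987, S3499 task 6108)

* `exists_w0` : the longest element of type `A_l`;
* `sd_choose_two`, `fifteen_le` (`l = 4`), `eighteen_le` (`l = 5`), `seventeen_le` (`l = 3`, edges of dimension `≥ 4`);
* `hsd_of_form` : a nondegenerate sesquilinear form invariant under `φ.range` gives the hypothesis of `mem_Jx_opp`.
-/

set_option autoImplicit false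
set_option linter.unusedSectionVars false
set_option linter.style.haveILetI false

namespace Cfsg.Agent.H987.EP

open Matrix CoxeterSystem Cfsg.Agent.ChevalleyStructure.CoxeterGeom Cfsg.Agent.Tits.Roots Cfsg.Agent.Tits.Core
  Cfsg.Agent.Tits.Exchange Cfsg.Agent.Nodes.Reps Cfsg.Agent.Nodes.BNOf Cfsg.Agent.Nodes.StabComb
  Cfsg.Agent.Nodes.Bruhat Cfsg.Agent.Nodes.OppDec Cfsg.Agent.Nodes.LeviDec Cfsg.Agent.KFacts.RgdOpp
  Cfsg.Agent.Omega.CR Cfsg.Agent.Omega.FOne.Lift.Sd Cfsg.Agent.H905.Md Cfsg.Agent.Nodes.RootsA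
open Cfsg.Agent.LieRecognition.BNCox (cA cA_apply)
open Cfsg.Agent.H650.Ppd (mf dim_ge_list dim_ge_list_two)
open Cfsg.Agent.H905.DC (cf)

theorem exists_w0 {l : ℕ} {W : Type*} [Group W] (cs : CoxeterSystem (cA l) W) {A : Fin l → Fin l → ℤ}
    (h : IsCartan (cA l) A) : ∃ w : W, ∀ i, rep cs h w (sr i) = -sr (Fin.revPerm i) := by
  obtain ⟨w, hw⟩ := exists_rep_perm (cs := cs) (h := h) (Fin.revPerm : Equiv.Perm (Fin (l + 1)))
  refine ⟨w, fun i => ?_⟩
  rw [← rtA_sr i, hw, ← rtA_sr (Fin.revPerm i), rtA_neg, Fin.revPerm_apply, Fin.revPerm_apply, Fin.revPerm_apply,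
    Fin.rev_castSucc, Fin.rev_succ]

section

variable {l : ℕ} {W Y : Type*} [Group W] [Group Y] {cs : CoxeterSystem (cA l) W} {p : ℕ} {T : Subgroup Y}
  {nn : Fin l → Y} {X : (Fin l → ℤ) → Subgroup Y} {k V : Type*} [Field k] [AddCommGroup V] [Module k V]
  (R : RGD cs (isCartan l) p T nn X) [Finite Y] [Finite W] [Fact p.Prime] [CharP k p]
  {ρ : Y →* Module.End k V} [FiniteDimensional k V] [Nontrivial V]
  (hirr : ∀ L : Submodule k V, Ivt ρ (GG cs (isCartan l) T X) L → L = ⊥ ∨ L = ⊤)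
  (hD : Module.finrank k (D cs (isCartan l) X ρ) = 1) (hn : 2 ≤ Module.finrank k V)
  (hsd : ∀ B : Subgroup Y, Module.finrank k (fx ρ B) = Module.finrank k (fx (dualRep ρ) B))
include R hirr hD hn hsd

/-- the support: a node and its opposite -/
theorem exists_pair_nodes : ∃ i : Fin l, i ∉ Jx cs (isCartan l) X ρ ∧ Fin.rev i ∉ Jx cs (isCartan l) X ρ ∧ i ≤ Fin.rev i := by
  obtain ⟨i, hi⟩ := exists_not_mem R hirr (by rw [hD]; omega)
  obtain ⟨w, hw⟩ := exists_w0 cs (isCartan l)
  have h1 := mem_Jx_opp R hirr hsd hw i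
  rw [Fin.revPerm_apply] at h1
  have h2 : Fin.rev i ∉ Jx cs (isCartan l) X ρ := fun h => hi (h1.2 h)
  rcases le_total i (Fin.rev i) with h3 | h3
  · exact ⟨i, hi, h2, h3⟩
  · exact ⟨Fin.rev i, h2, by rw [Fin.rev_rev]; exact hi, by rw [Fin.rev_rev]; exact h3⟩

theorem sd_choose_two (hl : 2 ≤ l) : (l + 1).choose 2 ≤ Module.finrank k V := by
  obtain ⟨i, hi, hi', hii⟩ := exists_pair_nodes R hirr hD hn hsd
  rcases Nat.eq_zero_or_pos i.val with h0 | h0
  · -- the two ends
    have hlast : (Fin.rev i).val = l - 1 := by rw [Fin.val_rev]; omega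
    have hτ : ∀ q : {q : Fin (l + 1) × Fin (l + 1) // q.1 < q.2}, ∃ σ : Equiv.Perm (Fin (l + 1)),
        σ 0 = q.1.1 ∧ σ (Fin.last l) = q.1.2 := by
      rintro ⟨⟨a, b⟩, hab⟩
      have hne : (0 : Fin (l + 1)) ≠ Fin.last l := by
        intro e
        have := congrArg Fin.val e
        simp at this
        omega
      refine ⟨Equiv.swap (Equiv.swap 0 a (Fin.last l)) b * Equiv.swap 0 a, ?_, ?_⟩
      · rw [Equiv.Perm.mul_apply, Equiv.swap_apply_left]
        apply Equiv.swap_apply_of_ne_of_ne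
        · intro e
          have h5 := Equiv.swap_apply_left (0 : Fin (l + 1)) a
          exact hne ((Equiv.swap (0 : Fin (l + 1)) a).injective (h5.trans e))
        · exact hab.ne
      · rw [Equiv.Perm.mul_apply, Equiv.swap_apply_left]
    choose σ hσ0 hσl using hτ
    have h1 := dim_ge_perm R hirr (α := {q : Fin (l + 1) × Fin (l + 1) // q.1 < q.2}) (β := Fin 0) σ (by
        intro q q' hqq
        have e1 : ∀ q, (σ q)⁻¹ q.1.1 = 0 := fun q => by rw [← hσ0 q]; exact (σ q).symm_apply_apply 0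
        have e2 : ∀ q, (σ q)⁻¹ q.1.2 = Fin.last l := fun q => by rw [← hσl q]; exact (σ q).symm_apply_apply _
        by_cases ha : q.1.1 = q'.1.1
        · have hb : q.1.2 ≠ q'.1.2 := fun hb => hqq (Subtype.ext (Prod.ext ha hb))
          refine ⟨Fin.rev i, hi', q'.1.2, ?_, ?_⟩
          · rw [hlast]
            have h2 : (σ q)⁻¹ q'.1.2 ≠ Fin.last l := by
              intro h3
              rw [← e2 q] at h3
              exact hb ((σ q)⁻¹.injective h3).symm
            have h4 := Fin.val_lt_last h2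
            omega
          · rw [hlast, e2 q', Fin.val_last]
            omega
        · refine ⟨i, hi, q.1.1, ?_, ?_⟩
          · rw [e1 q]
            simp
          · rw [h0]
            intro h3
            have h4 : (σ q')⁻¹ q.1.1 = 0 := Fin.ext (by simpa using h3)
            rw [← e1 q'] at h4
            exact ha ((σ q')⁻¹.injective h4))
      (fun b => b.elim0) (fun b => b.elim0) (fun b => b.elim0) (fun b => b.elim0) (fun b => b.elim0)
    rw [hD, mul_one, card_pairs] at h1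
    simpa using h1
  · have h1 := dim_ge_A R hirr hi
    rw [hD, mul_one] at h1
    have h2 := i.2
    have h3 : i.val ≤ (Fin.rev i).val := hii
    rw [Fin.val_rev] at h3
    have h4 := choose_two_le (m := l + 1) (k := i.val + 1) (by omega) (by omega)
    omega

end

/-! ### small rank -/

section four

variable {W Y : Type*} [Group W] [Group Y] {cs : CoxeterSystem (cA 4) W} {p : ℕ} {T : Subgroup Y}
  {nn : Fin 4 → Y} {X : (Fin 4 → ℤ) → Subgroup Y} {k V : Type*} [Field k] [AddCommGroup V] [Module k V]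
  (R : RGD cs (isCartan 4) p T nn X) [Finite Y] [Finite W] [Fact p.Prime] [CharP k p]
  {ρ : Y →* Module.End k V} [FiniteDimensional k V] [Nontrivial V]
  (hirr : ∀ L : Submodule k V, Ivt ρ (GG cs (isCartan 4) T X) L → L = ⊥ ∨ L = ⊤)
  (hD : Module.finrank k (D cs (isCartan 4) X ρ) = 1) (hn : 2 ≤ Module.finrank k V)
  (hsd : ∀ B : Subgroup Y, Module.finrank k (fx ρ B) = Module.finrank k (fx (dualRep ρ) B))
include R hirr hD hn hsd

theorem fifteen_le : 15 ≤ Module.finrank k V := by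
  obtain ⟨i, hi, hi', hii⟩ := exists_pair_nodes R hirr hD hn hsd
  have h2 : i = 0 ∨ i = 1 := by
    rw [Fin.le_def, Fin.val_rev] at hii
    have := i.2
    have h3 : i.val = 0 ∨ i.val = 1 := by omega
    rcases h3 with h3 | h3
    · exact Or.inl (Fin.ext h3)
    · exact Or.inr (Fin.ext h3)
  rcases h2 with rfl | rfl
  · have h1 := dim_ge_list_two R hirr hi (j := 3) hi' (by decide) [[], [0], [3], [0, 1], [0, 3], [3, 2], [0, 1, 2],
      [0, 1, 3], [0, 3, 2], [3, 2, 1], [0, 1, 2, 3], [0, 1, 3, 2], [0, 3, 2, 1], [3, 2, 1, 0], [0, 1, 2, 3, 2]] [] []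
      (by decide +kernel) (by simp) (by simp)
    rw [hD] at h1
    simpa using h1
  · have h1 := dim_ge_list_two R hirr hi (j := 2) hi' (by decide) [[], [1], [2], [1, 0], [1, 2], [2, 1], [2, 3],
      [1, 0, 2], [1, 2, 1], [1, 2, 3], [2, 1, 0], [2, 1, 3], [1, 0, 2, 1], [1, 0, 2, 3], [1, 2, 1, 0]] [] []
      (by decide +kernel) (by simp) (by simp)
    rw [hD] at h1
    simpa using h1

end four

section five

variable {W Y : Type*} [Group W] [Group Y] {cs : CoxeterSystem (cA 5) W} {p : ℕ} {T : Subgroup Y}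
  {nn : Fin 5 → Y} {X : (Fin 5 → ℤ) → Subgroup Y} {k V : Type*} [Field k] [AddCommGroup V] [Module k V]
  (R : RGD cs (isCartan 5) p T nn X) [Finite Y] [Finite W] [Fact p.Prime] [CharP k p]
  {ρ : Y →* Module.End k V} [FiniteDimensional k V] [Nontrivial V]
  (hirr : ∀ L : Submodule k V, Ivt ρ (GG cs (isCartan 5) T X) L → L = ⊥ ∨ L = ⊤)
  (hD : Module.finrank k (D cs (isCartan 5) X ρ) = 1) (hn : 2 ≤ Module.finrank k V)
  (hsd : ∀ B : Subgroup Y, Module.finrank k (fx ρ B) = Module.finrank k (fx (dualRep ρ) B))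
include R hirr hD hn hsd

theorem eighteen_le : 18 ≤ Module.finrank k V := by
  obtain ⟨i, hi, hi', hii⟩ := exists_pair_nodes R hirr hD hn hsd
  have h2 : i = 0 ∨ i = 1 ∨ i = 2 := by
    rw [Fin.le_def, Fin.val_rev] at hii
    have := i.2
    have h3 : i.val = 0 ∨ i.val = 1 ∨ i.val = 2 := by omega
    rcases h3 with h3 | h3 | h3
    · exact Or.inl (Fin.ext h3)
    · exact Or.inr (Or.inl (Fin.ext h3))
    · exact Or.inr (Or.inr (Fin.ext h3))
  rcases h2 with rfl | rfl | rfl
  · have h1 := dim_ge_list_two R hirr hi (j := 4) hi' (by decide) [[], [0], [4], [0, 1], [0, 4], [4, 3], [0, 1, 2],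
      [0, 1, 4], [0, 4, 3], [4, 3, 2], [0, 1, 2, 3], [0, 1, 2, 4], [0, 1, 4, 3], [0, 4, 3, 2], [4, 3, 2, 1],
      [0, 1, 2, 3, 4], [0, 1, 2, 4, 3], [0, 1, 4, 3, 2]] [] [] (by decide +kernel) (by simp) (by simp)
    rw [hD] at h1
    simpa using h1
  · have h1 := dim_ge_list_two R hirr hi (j := 3) hi' (by decide) [[], [1], [3], [1, 0], [1, 2], [1, 3], [3, 2],
      [3, 4], [1, 0, 2], [1, 0, 3], [1, 2, 3], [1, 3, 2], [1, 3, 4], [3, 2, 1], [3, 2, 4], [1, 0, 2, 1],
      [1, 0, 2, 3], [1, 0, 3, 2]] [] [] (by decide +kernel) (by simp) (by simp)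
    rw [hD] at h1
    simpa using h1
  · have h1 := dim_ge_A R hirr hi
    rw [hD, mul_one] at h1
    have h3 : (5 + 1).choose ((2 : Fin 5).val + 1) = 20 := by decide
    omega

end five

section three

variable {W Y : Type*} [Group W] [Group Y] {cs : CoxeterSystem (cA 3) W} {p : ℕ} {T : Subgroup Y}
  {nn : Fin 3 → Y} {X : (Fin 3 → ℤ) → Subgroup Y} {k V : Type*} [Field k] [AddCommGroup V] [Module k V]
  (R : RGD cs (isCartan 3) p T nn X) [Finite Y] [Finite W] [Fact p.Prime] [CharP k p]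
  {ρ : Y →* Module.End k V} [FiniteDimensional k V] [Nontrivial V]
  (hirr : ∀ L : Submodule k V, Ivt ρ (GG cs (isCartan 3) T X) L → L = ⊥ ∨ L = ⊤)
  (hD : Module.finrank k (D cs (isCartan 3) X ρ) = 1) (hn : 2 ≤ Module.finrank k V)
  (hsd : ∀ B : Subgroup Y, Module.finrank k (fx ρ B) = Module.finrank k (fx (dualRep ρ) B))
  (he : ∀ i, i ∉ Jx cs (isCartan 3) X ρ → 4 ≤ Module.finrank k (Le cs (isCartan 3) T X ρ {i}))
include R hirr hD hn hsd he

theorem seventeen_le : 17 ≤ Module.finrank k V := by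
  obtain ⟨i, hi, hi', hii⟩ := exists_pair_nodes R hirr hD hn hsd
  have h2 : i = 0 ∨ i = 1 := by
    rw [Fin.le_def, Fin.val_rev] at hii
    have := i.2
    have h3 : i.val = 0 ∨ i.val = 1 := by omega
    rcases h3 with h3 | h3
    · exact Or.inl (Fin.ext h3)
    · exact Or.inr (Fin.ext h3)
  have h4 := he i hi
  have h5 := finrank_Io R hirr i
  rw [hD] at h5
  rcases h2 with rfl | rfl
  · have h1 := dim_ge_list_two R hirr hi (j := 2) hi' (by decide) [[], [0], [2], [0, 1], [0, 2], [2, 1], [0, 1, 2],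
      [0, 2, 1], [2, 1, 0], [0, 1, 2, 1], [0, 2, 1, 0], [0, 1, 2, 1, 0]] [[], [1], [2]] []
      (by decide +kernel) (by decide +kernel) (by simp)
    rw [hD] at h1
    simp only [List.length_cons, List.length_nil] at h1
    omega
  · have h1 := dim_ge_A R hirr hi
    rw [hD, mul_one] at h1
    have h3 : (3 + 1).choose ((1 : Fin 3).val + 1) = 6 := by decide
    have h6 : (3 + 1).choose 2 = 6 := by decide
    rw [h3, h6] at h1
    omega

end three

end Cfsg.Agent.H987.EP
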