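import Cfsg.Agent.H650.Ppd.Count
import Cfsg.Agent.H987.EP.TypeA

/-!
# Self-dual simple modules of type `A_l`: the number of vertices (helper987, S3499 task 6108)

* `vertices` : the orbit of the highest weight has at least `min (m (m - 1)) (C(m, m / 2))` elements, `m = l + 1`;
* **`sd_dim`** : `2 dim V ≥ d * N`, `d` a lower bound for the dimension of the edges.
-/

set_option autoImplicit false
set_option linter.unusedSectionVars false
set_option linter.style.haveILetI false

namespace Cfsg.Agent.H987.EP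

open Matrix CoxeterSystem Cfsg.Agent.ChevalleyStructure.CoxeterGeom Cfsg.Agent.Tits.Roots Cfsg.Agent.Tits.Core
  Cfsg.Agent.Tits.Exchange Cfsg.Agent.Nodes.Reps Cfsg.Agent.Nodes.BNOf Cfsg.Agent.Nodes.StabComb
  Cfsg.Agent.Nodes.Bruhat Cfsg.Agent.Nodes.OppDec Cfsg.Agent.Nodes.LeviDec Cfsg.Agent.KFacts.RgdOpp
  Cfsg.Agent.Omega.CR Cfsg.Agent.Omega.FOne.Lift.Sd Cfsg.Agent.H905.Md Cfsg.Agent.Nodes.RootsA
open Cfsg.Agent.LieRecognition.BNCox (cA cA_apply)

/-- a permutation mapping `{≤ i}` onto `S` and `{> l - 1 - i}` onto `T` -/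
theorem exists_perm_two {l : ℕ} {i : Fin l} (hi : i < Fin.rev i) (S T : Finset (Fin (l + 1))) (hS : S.card = i.val + 1)
    (hT : T.card = i.val + 1) (hd : Disjoint S T) : ∃ σ : Equiv.Perm (Fin (l + 1)),
      (∀ a, (σ⁻¹ a).val ≤ i.val ↔ a ∈ S) ∧ ∀ a, (σ⁻¹ a).val ≤ (Fin.rev i).val ↔ a ∉ T := by
  classical
  have hi' : i.val < (Fin.rev i).val := hi
  have hr : (Fin.rev i).val = l - 1 - i.val := by rw [Fin.val_rev]; omega
  have hil := i.2
  let f : Fin (l + 1) → Fin 3 := fun x => if x.val ≤ i.val then 0 else if x.val ≤ (Fin.rev i).val then 1 else 2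
  let g : Fin (l + 1) → Fin 3 := fun c => if c ∈ S then 0 else if c ∉ T then 1 else 2
  have f0 : ∀ x, f x = 0 ↔ x.val ≤ i.val := by
    intro x
    simp only [f]
    split_ifs with h1 h2 <;> simp [h1]
  have f2 : ∀ x, f x = 2 ↔ ¬ x.val ≤ (Fin.rev i).val := by
    intro x
    simp only [f]
    split_ifs with h1 h2
    · simp only [Fin.reduceEq, false_iff, not_not]; omega
    · simp only [Fin.reduceEq, false_iff, not_not]; exact h2
    · simp only [true_iff]; exact h2
  have g0 : ∀ x, g x = 0 ↔ x ∈ S := by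
    intro x
    simp only [g]
    split_ifs with h1 h2 <;> simp [h1]
  have g2 : ∀ x, g x = 2 ↔ x ∈ T := by
    intro x
    simp only [g]
    split_ifs with h1 h2
    · have : x ∉ T := Finset.disjoint_left.1 hd h1
      simp [this]
    · simpa using h2
    · simpa using h2
  have c0 : Fintype.card {x // f x = 0} = Fintype.card {x // g x = 0} := by
    rw [Fintype.card_subtype, Fintype.card_subtype]
    have e1 : (Finset.univ.filter fun x => f x = 0) = Finset.Iic i.castSucc := by
      ext x
      simp [f0, Fin.le_def]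
    have e2 : (Finset.univ.filter fun x => g x = 0) = S := by
      ext x
      simp [g0]
    rw [e1, e2, hS, Fin.card_Iic]
    rfl
  have c2 : Fintype.card {x // f x = 2} = Fintype.card {x // g x = 2} := by
    rw [Fintype.card_subtype, Fintype.card_subtype]
    have e1 : (Finset.univ.filter fun x => f x = 2) = Finset.Ioi (Fin.rev i).castSucc := by
      ext x
      simp [f2, Fin.lt_def]
    have e2 : (Finset.univ.filter fun x => g x = 2) = T := by
      ext x
      simp [g2]
    rw [e1, e2, hT, Fin.card_Ioi]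
    simp only [Fin.val_castSucc]
    omega
  have hsum : ∀ f : Fin (l + 1) → Fin 3, Fintype.card {x // f x = 0} + Fintype.card {x // f x = 1} +
      Fintype.card {x // f x = 2} = l + 1 := by
    intro f
    have h1 := Finset.card_eq_sum_card_fiberwise (f := f) (s := Finset.univ) (t := Finset.univ)
      (fun _ _ => Finset.mem_coe.2 (Finset.mem_univ _))
    rw [Finset.card_univ, Fintype.card_fin, Fin.sum_univ_three] at h1
    rw [Fintype.card_subtype, Fintype.card_subtype, Fintype.card_subtype]
    exact h1.symm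
  have c1 : Fintype.card {x // f x = 1} = Fintype.card {x // g x = 1} := by
    have h1 := hsum f
    have h2 := hsum g
    omega
  have hc : ∀ c, Nonempty ({x // f x = c} ≃ {x // g x = c}) := by
    intro c
    fin_cases c
    · exact Fintype.card_eq.1 c0
    · exact Fintype.card_eq.1 c1
    · exact Fintype.card_eq.1 c2
  let σ : Equiv.Perm (Fin (l + 1)) := Equiv.ofFiberEquiv fun c => (hc c).some
  have hσ : ∀ a, g (σ a) = f a := Equiv.ofFiberEquiv_map fun c => (hc c).some
  have hσ' : ∀ a, f (σ⁻¹ a) = g a := fun a => by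
    rw [← hσ]
    congr 1
    exact σ.apply_symm_apply a
  refine ⟨σ, fun a => ?_, fun a => ?_⟩
  · rw [← f0, hσ', g0]
  · rw [← not_iff_not, ← f2, hσ', g2, not_not]

section

variable {l : ℕ} {W Y : Type*} [Group W] [Group Y] {cs : CoxeterSystem (cA l) W} {p : ℕ} {T : Subgroup Y}
  {nn : Fin l → Y} {X : (Fin l → ℤ) → Subgroup Y} {k V : Type*} [Field k] [AddCommGroup V] [Module k V]
  (R : RGD cs (isCartan l) p T nn X) [Finite Y] [Finite W] [Fact p.Prime] [CharP k p]
  {ρ : Y →* Module.End k V} [FiniteDimensional k V] [Nontrivial V]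
  (hirr : ∀ L : Submodule k V, Ivt ρ (GG cs (isCartan l) T X) L → L = ⊥ ∨ L = ⊤)
  (hD : Module.finrank k (D cs (isCartan l) X ρ) = 1)
include R hirr hD

/-- **Two opposite nodes**: the flags `S ⊂ Tᶜ`. -/
theorem dim_ge_flags {i : Fin l} (hi : i ∉ Jx cs (isCartan l) X ρ) (hi' : Fin.rev i ∉ Jx cs (isCartan l) X ρ)
    (hlt : i < Fin.rev i) : (l + 1).choose (i.val + 1) * (l - i.val).choose (i.val + 1) ≤ Module.finrank k V := by
  classical
  let α := Σ S : {S : Finset (Fin (l + 1)) // S.card = i.val + 1},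
    {U : Finset (Fin (l + 1)) // U ∈ Finset.powersetCard (i.val + 1) (S.1ᶜ)}
  have hα : Fintype.card α = (l + 1).choose (i.val + 1) * (l - i.val).choose (i.val + 1) := by
    have h1 : ∀ S : {S : Finset (Fin (l + 1)) // S.card = i.val + 1},
        Fintype.card {U : Finset (Fin (l + 1)) // U ∈ Finset.powersetCard (i.val + 1) (S.1ᶜ)} =
          (l - i.val).choose (i.val + 1) := by
      intro S
      rw [Fintype.card_coe, Finset.card_powersetCard, Finset.card_compl, Fintype.card_fin, S.2]
      congr 1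
      omega
    rw [Fintype.card_sigma]
    trans ∑ _S : {S : Finset (Fin (l + 1)) // S.card = i.val + 1}, (l - i.val).choose (i.val + 1)
    · exact Finset.sum_congr rfl fun S _ => by convert h1 S
    · rw [Finset.sum_const, Finset.card_univ, smul_eq_mul, Fintype.card_finset_len, Fintype.card_fin]
  have hσ : ∀ a : α, ∃ σ : Equiv.Perm (Fin (l + 1)),
      (∀ c, (σ⁻¹ c).val ≤ i.val ↔ c ∈ a.1.1) ∧ ∀ c, (σ⁻¹ c).val ≤ (Fin.rev i).val ↔ c ∉ a.2.1 := by
    rintro ⟨⟨S, hS⟩, ⟨U, hU⟩⟩
    rw [Finset.mem_powersetCard] at hU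
    refine exists_perm_two hlt S U hS hU.2 ?_
    rw [Finset.disjoint_left]
    intro x hx hxU
    exact (Finset.mem_compl.1 (hU.1 hxU)) hx
  choose σ hσ1 hσ2 using hσ
  have h1 := dim_ge_perm R hirr (α := α) (β := Fin 0) σ (by
      intro a a' haa
      by_contra hcon
      push Not at hcon
      apply haa
      have e1 : a.1.1 = a'.1.1 := by
        have h2 : a.1.1 ⊆ a'.1.1 := fun c hc => (hσ1 a' c).1 (hcon i hi c ((hσ1 a c).2 hc))
        exact Finset.eq_of_subset_of_card_le h2 (by rw [a.1.2, a'.1.2])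
      have e2 : a.2.1 = a'.2.1 := by
        have h2 : a'.2.1 ⊆ a.2.1 := by
          intro c hc
          by_contra h3
          exact ((hσ2 a' c).1 (hcon _ hi' c ((hσ2 a c).2 h3))) hc
        refine (Finset.eq_of_subset_of_card_le h2 ?_).symm
        rw [(Finset.mem_powersetCard.1 a.2.2).2, (Finset.mem_powersetCard.1 a'.2.2).2]
      obtain ⟨⟨S, hS⟩, ⟨U, hU⟩⟩ := a
      obtain ⟨⟨S', hS'⟩, ⟨U', hU'⟩⟩ := a'
      simp only at e1 e2
      subst e1
      subst e2
      rfl)
    (fun b => b.elim0) (fun b => b.elim0) (fun b => b.elim0) (fun b => b.elim0) (fun b => b.elim0)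
  rw [hD, mul_one, hα] at h1
  simpa using h1

variable (hn : 2 ≤ Module.finrank k V)
  (hsd : ∀ B : Subgroup Y, Module.finrank k (fx ρ B) = Module.finrank k (fx (dualRep ρ) B))
include hn hsd

/-- **The dimension of a self-dual module.** -/
theorem sd_dim : (l + 1) * l ≤ Module.finrank k V ∨ ∃ t, l + 1 = 2 * t ∧ (2 * t).choose t ≤ Module.finrank k V := by
  obtain ⟨i, hi, hi', hii⟩ := exists_pair_nodes R hirr hD hn hsd
  have hil := i.2
  have hr : (Fin.rev i).val = l - 1 - i.val := by rw [Fin.val_rev]; omega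
  rcases lt_or_eq_of_le hii with hlt | heq
  · left
    have hlt' : i.val < (Fin.rev i).val := hlt
    refine le_trans ?_ (dim_ge_flags R hirr hD hi hi' hlt)
    rcases Nat.eq_zero_or_pos i.val with h0 | h0
    · rw [h0]
      simp
    · have h4 := H905.Md.choose_two_le (m := l + 1) (k := i.val + 1) (by omega) (by omega)
      have h5 : 2 ≤ (l - i.val).choose (i.val + 1) := by
        have h6 : (l - i.val).choose 1 ≤ (l - i.val).choose (i.val + 1) := by
          rcases Nat.lt_or_ge (i.val + 1) 2 with h7 | h7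
          · omega
          · rcases Nat.lt_or_ge (i.val + 1 + 1) (l - i.val) with h8 | h8
            · have h9 := H905.Md.choose_two_le (m := l - i.val) (k := i.val + 1) (by omega) (by omega)
              refine le_trans ?_ h9
              rw [Nat.choose_one_right, Nat.choose_two_right, Nat.le_div_iff_mul_le (by norm_num)]
              exact Nat.mul_le_mul_left _ (by omega)
            · have h9 : l - i.val = (i.val + 1) + 1 := by omega
              rw [h9, Nat.choose_one_right, Nat.choose_succ_self_right]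
        rw [Nat.choose_one_right] at h6
        omega
      have h6 : (l + 1).choose 2 * 2 = (l + 1) * l := by
        rw [Nat.choose_two_right, Nat.add_sub_cancel, Nat.div_mul_cancel]
        rw [mul_comm]
        exact (Nat.even_mul_succ_self l).two_dvd
      rw [← h6]
      exact Nat.mul_le_mul h4 h5
  · right
    have h1 := congrArg Fin.val heq
    rw [hr] at h1
    refine ⟨i.val + 1, by omega, ?_⟩
    have h2 := dim_ge_A R hirr hi
    rw [hD, mul_one] at h2
    have h3 : l + 1 = 2 * (i.val + 1) := by omega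
    rw [← h3]
    omega

end

end Cfsg.Agent.H987.EP
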